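import Mathlib

/-!
Subnormal chains in finite groups: basic bounds used for the composition length estimate.
-/

set_option autoImplicit false

namespace Cfsg.Agent.Lib.CompLen

universe u v

/-- A subnormal chain from `⊥` to `A` with `l` strict steps. -/
inductive Ch {G : Type u} [Group G] : Subgroup G → ℕ → Prop
  | base : Ch ⊥ 0
  | step {A B : Subgroup G} {l : ℕ} : Ch A l → A < B → (∀ x ∈ A, ∀ b ∈ B, b * x * b⁻¹ ∈ A) →
      Ch B (l + 1)

section basic

variable {G : Type u} [Group G] {G' : Type v} [Group G']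

theorem Ch.of_fin {l : ℕ} (H : Fin (l + 1) → Subgroup G) (h0 : H 0 = ⊥) (hl : H (Fin.last l) = ⊤)
    (hchain : ∀ i : Fin l, H i.castSucc < H i.succ ∧ ((H i.castSucc).subgroupOf (H i.succ)).Normal) :
    Ch (⊤ : Subgroup G) l := by
  have key : ∀ i : Fin (l + 1), Ch (H i) i := by
    intro i
    induction i using Fin.induction with
    | zero =>
      rw [h0]
      exact Ch.base
    | succ i ih =>
      obtain ⟨h1, h2⟩ := hchain i
      refine Ch.step (l := i) (by simpa using ih) h1 ?_
      intro x hx b hb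
      have := h2.conj_mem ⟨x, h1.le hx⟩ (by simpa [Subgroup.mem_subgroupOf] using hx) ⟨b, hb⟩
      simpa [Subgroup.mem_subgroupOf] using this
  have := key (Fin.last l)
  rw [hl] at this
  simpa using this

theorem Ch.map_inj (f : G →* G') (hf : Function.Injective f) {A : Subgroup G} {l : ℕ}
    (h : Ch A l) : Ch (A.map f) l := by
  induction h with
  | base =>
    rw [Subgroup.map_bot]
    exact Ch.base
  | step _ hlt hn ih =>
    refine Ch.step ih ?_ ?_
    · exact (Subgroup.map_lt_map_iff_of_injective hf).mpr hlt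
    · rintro _ ⟨x, hx, rfl⟩ _ ⟨b, hb, rfl⟩
      exact ⟨b * x * b⁻¹, hn x hx b hb, by simp⟩

/-- Transport of the full chain along an isomorphism. -/
theorem Ch.top_equiv (e : G ≃* G') {l : ℕ} (h : Ch (⊤ : Subgroup G) l) :
    Ch (⊤ : Subgroup G') l := by
  have := Ch.map_inj e.toMonoidHom e.injective h
  rw [Subgroup.map_top_of_surjective _ e.surjective] at this
  exact this

theorem Ch.subgroupOf (K : Subgroup G) {A : Subgroup G} {l : ℕ} (h : Ch A l) (hA : A ≤ K) :
    Ch (A.subgroupOf K) l := by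
  induction h with
  | base =>
    rw [Subgroup.bot_subgroupOf]
    exact Ch.base
  | @step A B l _ hlt hn ih =>
    refine Ch.step (ih (hlt.le.trans hA)) ?_ ?_
    · refine lt_of_le_of_ne (Subgroup.comap_mono hlt.le) ?_
      intro he
      obtain ⟨x, hxB, hxA⟩ := SetLike.exists_of_lt hlt
      have h1 : (⟨x, hA hxB⟩ : K) ∈ B.subgroupOf K := hxB
      rw [← he] at h1
      exact hxA h1
    · intro x hx b hb
      exact hn x hx b hb

/-- One more normal inclusion either changes nothing or adds one to the chain. -/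
theorem Ch.up {A B : Subgroup G} {l : ℕ} (h : Ch A l) (hle : A ≤ B)
    (hn : ∀ x ∈ A, ∀ b ∈ B, b * x * b⁻¹ ∈ A) : (A = B ∧ Ch B l) ∨ (A ≠ B ∧ Ch B (l + 1)) := by
  by_cases he : A = B
  · exact Or.inl ⟨he, he ▸ h⟩
  · exact Or.inr ⟨he, Ch.step h (lt_of_le_of_ne hle he) hn⟩

theorem Ch.split (f : G →* G') {A : Subgroup G} {l : ℕ} (h : Ch A l) :
    ∃ l₁ l₂, l ≤ l₁ + l₂ ∧ Ch (A ⊓ f.ker) l₁ ∧ Ch (A.map f) l₂ := by
  induction h with
  | base =>
    refine ⟨0, 0, le_rfl, ?_, ?_⟩
    · rw [bot_inf_eq]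
      exact Ch.base
    · rw [Subgroup.map_bot]
      exact Ch.base
  | @step A B l _ hlt hn ih =>
    obtain ⟨l₁, l₂, hl, h₁, h₂⟩ := ih
    have hle1 : A ⊓ f.ker ≤ B ⊓ f.ker := inf_le_inf_right _ hlt.le
    have hn1 : ∀ x ∈ A ⊓ f.ker, ∀ b ∈ B ⊓ f.ker, b * x * b⁻¹ ∈ A ⊓ f.ker := by
      rintro x ⟨hx1, hx2⟩ b ⟨hb1, hb2⟩
      refine ⟨hn x hx1 b hb1, ?_⟩
      exact (inferInstance : f.ker.Normal).conj_mem x hx2 b
    have hle2 : A.map f ≤ B.map f := Subgroup.map_mono hlt.le
    have hn2 : ∀ x ∈ A.map f, ∀ b ∈ B.map f, b * x * b⁻¹ ∈ A.map f := by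
      rintro _ ⟨x, hx, rfl⟩ _ ⟨b, hb, rfl⟩
      exact ⟨b * x * b⁻¹, hn x hx b hb, by simp⟩
    rcases Ch.up h₁ hle1 hn1 with ⟨e1, c1⟩ | ⟨e1, c1⟩ <;>
      rcases Ch.up h₂ hle2 hn2 with ⟨e2, c2⟩ | ⟨e2, c2⟩
    · exfalso
      obtain ⟨x, hxB, hxA⟩ := SetLike.exists_of_lt hlt
      have h3 : f x ∈ A.map f := by
        rw [e2]
        exact ⟨x, hxB, rfl⟩
      obtain ⟨a, ha, hax⟩ := h3
      have h4 : a⁻¹ * x ∈ B ⊓ f.ker := by
        refine ⟨B.mul_mem (B.inv_mem (hlt.le ha)) hxB, ?_⟩
        change f (a⁻¹ * x) = 1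
        rw [map_mul, map_inv, hax]
        simp
      rw [← e1] at h4
      apply hxA
      have := A.mul_mem ha h4.1
      simpa using this
    · exact ⟨l₁, l₂ + 1, by omega, c1, c2⟩
    · exact ⟨l₁ + 1, l₂, by omega, c1, c2⟩
    · exact ⟨l₁ + 1, l₂ + 1, by omega, c1, c2⟩

/-- The top-level form of the splitting. -/
theorem Ch.split_top (f : G →* G') {l : ℕ} (h : Ch (⊤ : Subgroup G) l) :
    ∃ l₁ l₂, l ≤ l₁ + l₂ ∧ Ch (⊤ : Subgroup f.ker) l₁ ∧ Ch (⊤ : Subgroup f.range) l₂ := by
  obtain ⟨l₁, l₂, hl, h₁, h₂⟩ := Ch.split f.rangeRestrict h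
  refine ⟨l₁, l₂, hl, ?_, ?_⟩
  · rw [top_inf_eq, MonoidHom.ker_rangeRestrict] at h₁
    have := Ch.subgroupOf f.ker h₁ le_rfl
    rwa [Subgroup.subgroupOf_self] at this
  · rwa [Subgroup.map_top_of_surjective _ f.rangeRestrict_surjective] at h₂

/-- The surjective form of the splitting. -/
theorem Ch.split_surj (f : G →* G') (hf : Function.Surjective f) {l : ℕ} (h : Ch (⊤ : Subgroup G) l) :
    ∃ l₁ l₂, l ≤ l₁ + l₂ ∧ Ch f.ker l₁ ∧ Ch (⊤ : Subgroup G') l₂ := by
  obtain ⟨l₁, l₂, hl, h₁, h₂⟩ := Ch.split f h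
  refine ⟨l₁, l₂, hl, ?_, ?_⟩
  · rwa [top_inf_eq] at h₁
  · rwa [Subgroup.map_top_of_surjective _ hf] at h₂

/-- Pull-back of a chain along a surjection. -/
theorem Ch.comap_surj (f : G →* G') (hf : Function.Surjective f) {l₁ : ℕ} (hk : Ch f.ker l₁)
    {C : Subgroup G'} {l₂ : ℕ} (h : Ch C l₂) : Ch (C.comap f) (l₁ + l₂) := by
  induction h with
  | base =>
    have : (⊥ : Subgroup G').comap f = f.ker := rfl
    rw [this]
    exact hk
  | @step A B l _ hlt hn ih =>
    refine Ch.step ih ?_ ?_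
    · refine lt_of_le_of_ne (Subgroup.comap_mono hlt.le) ?_
      intro he
      obtain ⟨x, hxB, hxA⟩ := SetLike.exists_of_lt hlt
      obtain ⟨y, rfl⟩ := hf x
      have h1 : y ∈ B.comap f := hxB
      rw [← he] at h1
      exact hxA h1
    · intro x hx b hb
      have := hn (f x) hx (f b) hb
      simpa [Subgroup.mem_comap] using this

theorem Ch.bot_eq {l : ℕ} (h : Ch (⊥ : Subgroup G) l) : l = 0 := by
  generalize hA : (⊥ : Subgroup G) = A at h
  induction h with
  | base => rfl
  | step _ hlt _ _ =>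
    subst hA
    exact absurd hlt not_lt_bot

theorem Ch.of_subsingleton [Subsingleton G] {l : ℕ} (h : Ch (⊤ : Subgroup G) l) : l = 0 := by
  have : (⊤ : Subgroup G) = ⊥ := Subsingleton.elim _ _
  rw [this] at h
  exact h.bot_eq

/-- A simple group has chains of length at most one. -/
theorem Ch.simple [IsSimpleGroup G] {l : ℕ} (h : Ch (⊤ : Subgroup G) l) : l ≤ 1 := by
  generalize hB : (⊤ : Subgroup G) = B at h
  cases h with
  | base => omega
  | @step A _ l hA hlt hn =>
    subst hB
    haveI hN : A.Normal := ⟨fun x hx g => hn x hx g (Subgroup.mem_top g)⟩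
    rcases hN.eq_bot_or_eq_top with h0 | h0
    · subst h0
      have := hA.bot_eq
      omega
    · subst h0
      exact absurd hlt (lt_irrefl _)

end basic

section count

open ArithmeticFunction

variable {G : Type u} [Group G]

theorem om_succ_le {a b : ℕ} (hb : b ≠ 0) (hab : a ∣ b) (hne : a ≠ b) :
    cardFactors a + 1 ≤ cardFactors b := by
  obtain ⟨c, rfl⟩ := hab
  have ha : a ≠ 0 := left_ne_zero_of_mul hb
  have hc : c ≠ 0 := right_ne_zero_of_mul hb
  rw [cardFactors_mul ha hc]
  have h1 : c ≠ 1 := by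
    rintro rfl
    exact hne (by simp)
  have h2 : 0 < cardFactors c := cardFactors_pos_iff_one_lt.mpr (by omega)
  omega

theorem two_pow_om_le (c : ℕ) (hc : c ≠ 0) : 2 ^ cardFactors c ≤ c := by
  induction c using Nat.recOnMul with
  | zero => exact absurd rfl hc
  | one => simp
  | prime p hp =>
    rw [cardFactors_apply_prime hp]
    simpa using hp.two_le
  | mul a b ha hb =>
    have ha0 : a ≠ 0 := left_ne_zero_of_mul hc
    have hb0 : b ≠ 0 := right_ne_zero_of_mul hc
    rw [cardFactors_mul ha0 hb0, pow_add]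
    exact Nat.mul_le_mul (ha ha0) (hb hb0)

variable [Finite G]

theorem om_card_lt {A B : Subgroup G} (h : A < B) :
    cardFactors (Nat.card A) + 1 ≤ cardFactors (Nat.card B) := by
  refine om_succ_le Nat.card_pos.ne' (Subgroup.card_dvd_of_le h.le) ?_
  intro he
  exact h.ne (Subgroup.eq_of_le_of_card_ge h.le he.symm.le)

theorem Ch.le_om {A : Subgroup G} {l : ℕ} (h : Ch A l) : l ≤ cardFactors (Nat.card A) := by
  induction h with
  | base => simp
  | step _ hlt _ ih =>
    have := om_card_lt hlt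
    omega

theorem Ch.two_pow_le {A : Subgroup G} {l : ℕ} (h : Ch A l) : 2 ^ l ≤ Nat.card A :=
  (Nat.pow_le_pow_right (by norm_num) h.le_om).trans (two_pow_om_le _ Nat.card_pos.ne')

/-- Generating sets of logarithmic size. -/
theorem exists_gens_aux : ∃ s : Finset G, Subgroup.closure (s : Set G) = ⊤ ∧
    s.card ≤ cardFactors (Nat.card G) := by
  classical
  haveI : Fintype G := Fintype.ofFinite G
  let P : Set (Subgroup G) := {A | ∃ s : Finset G, Subgroup.closure (s : Set G) = A ∧
    s.card ≤ cardFactors (Nat.card A)}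
  have hP : P.Nonempty := ⟨⊥, ∅, by simp, by simp⟩
  obtain ⟨A, ⟨s, hs, hcard⟩, hmax⟩ := (wellFounded_gt (α := Subgroup G)).has_min P hP
  by_cases hA : A = ⊤
  · subst hA
    refine ⟨s, hs, ?_⟩
    simpa using hcard
  exfalso
  obtain ⟨x, hx⟩ : ∃ x, x ∉ A := by
    by_contra hc
    push Not at hc
    exact hA (eq_top_iff.mpr fun y _ => hc y)
  have hlt : A < Subgroup.closure ((insert x s : Finset G) : Set G) := by
    refine lt_of_le_of_ne ?_ ?_
    · rw [← hs]
      exact Subgroup.closure_mono (by simp)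
    · intro he
      apply hx
      rw [he]
      exact Subgroup.subset_closure (by simp)
  apply hmax _ ⟨insert x s, rfl, ?_⟩ hlt
  have h1 := om_card_lt hlt
  have h2 := Finset.card_insert_le x s
  omega

/-- Generating a subgroup with few elements. -/
theorem exists_gens (A : Subgroup G) : ∃ s : Finset G, Subgroup.closure (s : Set G) = A ∧
    s.card ≤ cardFactors (Nat.card A) := by
  classical
  obtain ⟨s, hs, hc⟩ := exists_gens_aux (G := A)
  refine ⟨s.image A.subtype, ?_, Finset.card_image_le.trans hc⟩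
  rw [Finset.coe_image, ← MonoidHom.map_closure, hs, ← MonoidHom.range_eq_map, Subgroup.range_subtype]

/-- Counting via the conjugation action on a generating set. -/
theorem card_le_pow_of_gens (s : Finset G) (N C : Subgroup G) (hs : Subgroup.closure (s : Set G) = N)
    (hN : N.Normal) (hC : ∀ g ∈ C, (∀ x ∈ N, g * x * g⁻¹ = x) → g = 1) :
    Nat.card C ≤ Nat.card N ^ s.card := by
  classical
  haveI : Fintype G := Fintype.ofFinite G
  have hsN : ∀ x ∈ s, x ∈ N := fun x hx => by
    rw [← hs]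
    exact Subgroup.subset_closure hx
  let F : C → (s → N) := fun g x => ⟨(g : G) * x * (g : G)⁻¹, hN.conj_mem _ (hsN x x.2) _⟩
  have hF : Function.Injective F := by
    intro g₁ g₂ he
    have h1 : ((g₂ : G)⁻¹ * g₁) = 1 := by
      apply hC _ (C.mul_mem (C.inv_mem g₂.2) g₁.2)
      intro y hy
      have hcl : N ≤ Subgroup.centralizer {((g₂ : G)⁻¹ * g₁)} := by
        rw [← hs, Subgroup.closure_le]
        intro x hx
        have h3 := congrFun he ⟨x, hx⟩
        have h4 : (g₁ : G) * x * (g₁ : G)⁻¹ = g₂ * x * (g₂ : G)⁻¹ := congrArg Subtype.val h3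
        rw [SetLike.mem_coe, Subgroup.mem_centralizer_singleton_iff]
        have h5 : x * ((g₂ : G)⁻¹ * g₁) = (g₂ : G)⁻¹ * ((g₂ : G) * x * (g₂ : G)⁻¹) * g₁ := by group
        rw [h5, ← h4]
        group
      have := hcl hy
      rw [Subgroup.mem_centralizer_singleton_iff] at this
      rw [← this]
      group
    have h2 : (g₁ : G) = g₂ := by
      have := congrArg (fun z => (g₂ : G) * z) h1
      simpa using this
    exact Subtype.ext h2
  have h3 := Nat.card_le_card_of_injective F hF
  rw [Nat.card_fun, Nat.card_eq_fintype_card (α := s), Fintype.card_coe] at h3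
  exact h3

end count

section product

variable {T : Type u} [Group T]

/-- The kernel of evaluation at the first coordinate. -/
def kerEval (k : ℕ) : (Pi.evalMonoidHom (fun _ : Fin (k + 1) => T) 0).ker ≃* (Fin k → T) where
  toFun x := Fin.tail x.1
  invFun y := ⟨Fin.cons 1 y, by simp [MonoidHom.mem_ker]⟩
  left_inv x := by
    apply Subtype.ext
    funext i
    refine Fin.cases ?_ (fun j => ?_) i
    · have := x.2
      simp only [MonoidHom.mem_ker, Pi.evalMonoidHom_apply] at this
      simp [this]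
    · simp [Fin.tail]
  right_inv y := by
    funext i
    simp [Fin.tail]
  map_mul' x y := by
    funext i
    simp [Fin.tail]

/-- Powers of a simple group have chains of length at most the exponent. -/
theorem Ch.pow_le [IsSimpleGroup T] (m : ℕ) {l : ℕ} (h : Ch (⊤ : Subgroup (Fin m → T)) l) :
    l ≤ m := by
  induction m generalizing l with
  | zero =>
    have := h.of_subsingleton
    omega
  | succ k ih =>
    have hs : Function.Surjective (Pi.evalMonoidHom (fun _ : Fin (k + 1) => T) 0) := by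
      intro t
      exact ⟨fun _ => t, rfl⟩
    obtain ⟨l₁, l₂, hl, h₁, h₂⟩ := Ch.split_surj _ hs h
    have h3 := Ch.subgroupOf _ h₁ le_rfl
    rw [Subgroup.subgroupOf_self] at h3
    have h4 := ih (Ch.top_equiv (kerEval k) h3)
    have h5 := Ch.simple h₂
    omega

end product

end Cfsg.Agent.Lib.CompLen
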