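import Mathlib

/-!
Numerical estimates for the composition length bound.
-/

set_option autoImplicit false

namespace Cfsg.Agent.Lib.CompLen

open ArithmeticFunction

theorem numA_aux (e : ℕ) (he : 5 ≤ e) : 3 * (e + (e + 1) * e) + 4 ≤ 4 * 2 ^ e := by
  induction e, he using Nat.le_induction with
  | base => norm_num
  | succ e he ih =>
    rw [pow_succ]
    nlinarith

theorem numA {p k n l₂ : ℕ} (hp : p.Prime) (hk : 1 ≤ k) (hn : n = p ^ k) (h1 : 2 ^ l₂ ≤ n ^ k)
    (h2 : 3 * l₂ + 4 ≤ 4 * (n - 1)) (h3 : n = 8 → l₂ ≤ 6) : 3 * (k + l₂) + 4 ≤ 4 * n := by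
  have hn2 : 2 ≤ n := by
    rw [hn]
    calc 2 ≤ p := hp.two_le
      _ = p ^ 1 := (pow_one p).symm
      _ ≤ p ^ k := Nat.pow_le_pow_right hp.pos hk
  rcases Nat.lt_or_ge k 2 with hk2 | hk2
  · have : k = 1 := by omega
    omega
  have h2k : 2 ^ k ≤ n := by
    rw [hn]
    exact Nat.pow_le_pow_left hp.two_le k
  rcases Nat.lt_or_ge n 32 with hn32 | hn32
  · have hk5 : k < 5 := by
      by_contra hc
      have : 2 ^ 5 ≤ 2 ^ k := Nat.pow_le_pow_right (by norm_num) (by omega)
      omega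
    have hp2 : p ^ 2 ≤ n := by
      rw [hn]
      exact Nat.pow_le_pow_right hp.pos hk2
    have hp6 : p < 6 := by
      by_contra hc
      have : 6 ^ 2 ≤ p ^ 2 := Nat.pow_le_pow_left (by omega) 2
      omega
    have hp1 := hp.two_le
    interval_cases p <;> interval_cases k <;> norm_num at hn <;> subst hn <;>
      first
      | omega
      | (exfalso; revert hp; norm_num; done)
      | (have h4 : l₂ < 17 := (Nat.pow_lt_pow_iff_right (by norm_num : 1 < 2)).mp
          (lt_of_le_of_lt h1 (by norm_num))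
         omega)
      | (have h4 : l₂ < 15 := (Nat.pow_lt_pow_iff_right (by norm_num : 1 < 2)).mp
          (lt_of_le_of_lt h1 (by norm_num))
         omega)
      | (have h4 : l₂ < 10 := (Nat.pow_lt_pow_iff_right (by norm_num : 1 < 2)).mp
          (lt_of_le_of_lt h1 (by norm_num))
         omega)
      | (have h4 : l₂ < 7 := (Nat.pow_lt_pow_iff_right (by norm_num : 1 < 2)).mp
          (lt_of_le_of_lt h1 (by norm_num))
         omega)
  · obtain ⟨e, he⟩ : ∃ e, e = Nat.log 2 n := ⟨_, rfl⟩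
    have h4 : 2 ^ e ≤ n := by
      rw [he]
      exact Nat.pow_log_le_self 2 (by omega)
    have h5 : n < 2 ^ (e + 1) := by
      rw [he]
      exact Nat.lt_pow_succ_log_self (by norm_num) n
    have he5 : 5 ≤ e := by
      rw [he]
      exact Nat.le_log_of_pow_le (by norm_num) (by omega)
    have hke : k ≤ e := by
      have : 2 ^ k < 2 ^ (e + 1) := lt_of_le_of_lt h2k h5
      have := (Nat.pow_lt_pow_iff_right (by norm_num : 1 < 2)).mp this
      omega
    have hl2 : l₂ ≤ (e + 1) * e := by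
      have h6 : 2 ^ l₂ ≤ 2 ^ ((e + 1) * e) := by
        calc 2 ^ l₂ ≤ n ^ k := h1
          _ ≤ (2 ^ (e + 1)) ^ k := Nat.pow_le_pow_left h5.le k
          _ = 2 ^ ((e + 1) * k) := by rw [pow_mul]
          _ ≤ 2 ^ ((e + 1) * e) := Nat.pow_le_pow_right (by norm_num) (Nat.mul_le_mul_left _ hke)
      exact (Nat.pow_le_pow_iff_right (by norm_num : 1 < 2)).mp h6
    have := numA_aux e he5
    omega

theorem om_bound {d : ℕ} (h1 : d ∣ 5040) (h2 : d ≤ 512) : cardFactors d ≤ 6 := by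
  obtain ⟨c, hc⟩ := h1
  have hd0 : d ≠ 0 := by
    rintro rfl
    simp at hc
  have hc0 : c ≠ 0 := by
    rintro rfl
    simp at hc
  have h3 : 10 ≤ c := by
    by_contra hlt
    have : d * c ≤ 512 * 9 := Nat.mul_le_mul h2 (by omega)
    omega
  have h4 : cardFactors 5040 = 8 := by
    have : (5040 : ℕ) = 2 ^ 4 * 3 ^ 2 * 5 * 7 := by norm_num
    rw [this, cardFactors_mul (by norm_num) (by norm_num), cardFactors_mul (by norm_num) (by norm_num),
      cardFactors_mul (by norm_num) (by norm_num), cardFactors_apply_prime_pow Nat.prime_two,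
      cardFactors_apply_prime_pow Nat.prime_three, cardFactors_apply_prime (by norm_num),
      cardFactors_apply_prime (by norm_num)]
  rw [hc, cardFactors_mul hd0 hc0] at h4
  have h5 : 2 ≤ cardFactors c := by
    by_contra hlt
    have h6 : cardFactors c = 0 ∨ cardFactors c = 1 := by omega
    rcases h6 with h6 | h6
    · rw [cardFactors_eq_zero_iff_eq_zero_or_one] at h6
      omega
    · rw [cardFactors_eq_one_iff_prime] at h6
      have h7 : c ∣ 2 ^ 4 * 3 ^ 2 * 5 * 7 := ⟨d, by rw [mul_comm c d, ← hc]; norm_num⟩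
      have h8 : c ≤ 7 := by
        rcases (h6.dvd_mul).mp h7 with h7 | h7
        · rcases (h6.dvd_mul).mp h7 with h7 | h7
          · rcases (h6.dvd_mul).mp h7 with h7 | h7
            · have := (Nat.prime_dvd_prime_iff_eq h6 Nat.prime_two).mp (h6.dvd_of_dvd_pow h7)
              omega
            · have := (Nat.prime_dvd_prime_iff_eq h6 Nat.prime_three).mp (h6.dvd_of_dvd_pow h7)
              omega
          · exact (Nat.le_of_dvd (by norm_num) h7).trans (by norm_num)
        · exact Nat.le_of_dvd (by norm_num) h7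
      omega
  omega

theorem numB_aux (L : ℕ) (hL : 16 ≤ L) : (3 * (L + 1) * L + 4) ^ 2 ≤ 16 * 2 ^ L := by
  induction L, hL using Nat.le_induction with
  | base => norm_num
  | succ L hL ih =>
    have h2L : 2 ^ (L + 1) = 2 * 2 ^ L := by ring
    rw [h2L]
    have key : (3 * (L + 1 + 1) * (L + 1) + 4) ^ 2 ≤ 2 * (3 * (L + 1) * L + 4) ^ 2 := by
      obtain ⟨y, rfl⟩ := Nat.exists_eq_add_of_le hL
      ring_nf
      nlinarith [Nat.zero_le y, Nat.zero_le (y ^ 2), Nat.zero_le (y ^ 3), Nat.zero_le (y ^ 4)]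
    omega

/-- The estimate in the nonabelian case with at least three factors. -/
theorem numB {c n d l : ℕ} (hc : 2 ^ 16 ≤ c) (hcn : c ≤ n ^ 2) (hd : 2 ^ d ≤ c) (hl : 2 ^ l ≤ c ^ d) :
    3 * l + 4 ≤ 4 * n := by
  obtain ⟨L, hL⟩ : ∃ L, L = Nat.log 2 c := ⟨_, rfl⟩
  have h4 : 2 ^ L ≤ c := by
    rw [hL]
    have h216 : 0 < 2 ^ 16 := by norm_num
    exact Nat.pow_log_le_self 2 (by omega)
  have h5 : c < 2 ^ (L + 1) := by
    rw [hL]
    exact Nat.lt_pow_succ_log_self (by norm_num) c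
  have hL16 : 16 ≤ L := by
    rw [hL]
    exact Nat.le_log_of_pow_le (by norm_num) hc
  have hdL : d ≤ L := by
    have : 2 ^ d < 2 ^ (L + 1) := lt_of_le_of_lt hd h5
    have := (Nat.pow_lt_pow_iff_right (by norm_num : 1 < 2)).mp this
    omega
  have hlL : l ≤ (L + 1) * L := by
    have h6 : 2 ^ l ≤ 2 ^ ((L + 1) * L) := by
      calc 2 ^ l ≤ c ^ d := hl
        _ ≤ (2 ^ (L + 1)) ^ d := Nat.pow_le_pow_left h5.le d
        _ = 2 ^ ((L + 1) * d) := by rw [pow_mul]
        _ ≤ 2 ^ ((L + 1) * L) := Nat.pow_le_pow_right (by norm_num) (Nat.mul_le_mul_left _ hdL)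
    exact (Nat.pow_le_pow_iff_right (by norm_num : 1 < 2)).mp h6
  have h7 := numB_aux L hL16
  have h8 : (3 * (L + 1) * L + 4) ^ 2 ≤ (4 * n) ^ 2 := by
    calc (3 * (L + 1) * L + 4) ^ 2 ≤ 16 * 2 ^ L := h7
      _ ≤ 16 * n ^ 2 := Nat.mul_le_mul_left _ (h4.trans hcn)
      _ = (4 * n) ^ 2 := by ring
  have h9 := (Nat.pow_le_pow_iff_left (by norm_num : 2 ≠ 0)).mp h8
  nlinarith

end Cfsg.Agent.Lib.CompLen
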