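import Mathlib
import Cfsg.Agent.Lib.CompLen.Basic

/-!
Reduction of the composition length bound to primitive groups.
-/

set_option autoImplicit false

namespace Cfsg.Agent.Lib.CompLen

universe v

open scoped Pointwise

/-- The statement proved by induction on the degree. -/
def PP (n : ℕ) : Prop :=
  ∀ (G Ω : Type v) [Group G] [Finite G] [MulAction G Ω] [FaithfulSMul G Ω] [Finite Ω] (φ : Ω → ℕ),
    (∀ (g : G) (ω : Ω), φ (g • ω) = φ ω) → Nat.card Ω = n →
    ∀ l, Ch (⊤ : Subgroup G) l → 3 * l + 4 * (Set.range φ).ncard ≤ 4 * n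

theorem split_O {n : ℕ} (IH : ∀ m < n, PP.{v} m) (G Ω : Type v) [Group G] [Finite G] [MulAction G Ω]
    [FaithfulSMul G Ω] [Finite Ω] (φ : Ω → ℕ) (hφ : ∀ (g : G) (ω : Ω), φ (g • ω) = φ ω)
    (hn : Nat.card Ω = n) (O : Set Ω) (hO : ∀ (g : G) (ω : Ω), ω ∈ O → g • ω ∈ O)
    (hne : O.Nonempty) (hne' : Oᶜ.Nonempty) (l : ℕ) (hl : Ch (⊤ : Subgroup G) l) :
    3 * l + 4 * (Set.range φ).ncard ≤ 4 * n := by
  classical
  let A : SubMulAction G Ω := ⟨O, fun g ω h => hO g ω h⟩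
  let f : G →* Equiv.Perm A := MulAction.toPermHom G A
  obtain ⟨l₁, l₂, hl', h₁, h₂⟩ := Ch.split_top f hl
  haveI fA : FaithfulSMul f.range A := ⟨fun h => Subtype.ext (Equiv.ext h)⟩
  have hOc : ∀ (g : G) (ω : Ω), ω ∈ Oᶜ → g • ω ∈ Oᶜ := by
    intro g ω h h'
    apply h
    have := hO g⁻¹ _ h'
    simpa using this
  let B : SubMulAction f.ker Ω := ⟨Oᶜ, fun g ω h => hOc g ω h⟩
  haveI fB : FaithfulSMul f.ker B := by
    refine ⟨fun {k₁ k₂} h => ?_⟩
    apply Subtype.ext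
    apply FaithfulSMul.eq_of_smul_eq_smul (α := Ω)
    intro ω
    by_cases hω : ω ∈ O
    · have h1 : ∀ k : f.ker, (k : G) • ω = ω := by
        intro k
        have h2 : f k = 1 := k.2
        have h3 := congrArg (fun p : Equiv.Perm A => ((p ⟨ω, hω⟩ : A) : Ω)) h2
        exact h3
      rw [h1, h1]
    · exact congrArg Subtype.val (h (⟨ω, hω⟩ : B))
  have hA : Nat.card A = O.ncard := Nat.card_coe_set_eq O
  have hB : Nat.card B = Oᶜ.ncard := Nat.card_coe_set_eq Oᶜ
  have hsum : O.ncard + Oᶜ.ncard = n := by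
    rw [Set.ncard_add_ncard_compl, hn]
  have hpos : 0 < O.ncard := (Set.ncard_pos (Set.toFinite O)).mpr hne
  have hpos' : 0 < Oᶜ.ncard := (Set.ncard_pos (Set.toFinite _)).mpr hne'
  have e1 := IH (Nat.card A) (by omega) f.range A (fun x => φ x) (by
    rintro ⟨g, ⟨g', rfl⟩⟩ ω
    exact hφ g' ω) rfl l₂ h₂
  have e2 := IH (Nat.card B) (by omega) f.ker B (fun x => φ x) (by
    intro k ω
    exact hφ k ω) rfl l₁ h₁
  have hr : (Set.range φ).ncard ≤ (Set.range fun x : A => φ x).ncard + (Set.range fun x : B => φ x).ncard := by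
    refine le_trans (Set.ncard_le_ncard ?_ (Set.toFinite _)) (Set.ncard_union_le _ _)
    rintro _ ⟨ω, rfl⟩
    by_cases hω : ω ∈ O
    · exact Or.inl ⟨⟨ω, hω⟩, rfl⟩
    · exact Or.inr ⟨⟨ω, hω⟩, rfl⟩
  rw [hA] at e1
  rw [hB] at e2
  omega

theorem imprim_case {n : ℕ} (IH : ∀ m < n, PP.{v} m) (G Ω : Type v) [Group G] [Finite G]
    [MulAction G Ω] [FaithfulSMul G Ω] [Finite Ω] [MulAction.IsPretransitive G Ω]
    (hn : Nat.card Ω = n) (B : Set Ω) (hB : MulAction.IsBlock G B)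
    (hB' : ¬ MulAction.IsTrivialBlock B) (l : ℕ) (hl : Ch (⊤ : Subgroup G) l) :
    3 * l + 4 ≤ 4 * n := by
  classical
  have hns : ¬ B.Subsingleton := fun h => hB' (Or.inl h)
  have hnt : B ≠ ⊤ := fun h => hB' (Or.inr h)
  obtain ⟨x, hx, y, hy, hxy⟩ : ∃ x ∈ B, ∃ y ∈ B, x ≠ y := by
    simpa [Set.Subsingleton] using hns
  obtain ⟨z, hz⟩ : ∃ z, z ∉ B := by
    by_contra hc
    push Not at hc
    exact hnt (Set.eq_univ_of_forall hc)
  let Q := MulAction.orbit G B
  have hpick : ∀ ω : Ω, ∃ q : Q, ω ∈ (q : Set Ω) := by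
    intro ω
    obtain ⟨g, hg⟩ := MulAction.exists_smul_eq G x ω
    exact ⟨⟨g • B, ⟨g, rfl⟩⟩, by rw [← hg]; exact Set.smul_mem_smul_set hx⟩
  choose π hπ using hpick
  have huniq : ∀ (ω : Ω) (q : Q), ω ∈ (q : Set Ω) → q = π ω := by
    rintro ω ⟨_, g, rfl⟩ hq
    obtain ⟨h, hh⟩ := (π ω).2
    apply Subtype.ext
    have hq' : ω ∈ h • B := by
      have := hπ ω
      rw [← hh] at this
      exact this
    change (fun m => m • B) g = ((π ω : Q) : Set Ω)
    rw [← hh]
    by_contra hne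
    exact Set.disjoint_left.mp (hB hne) hq hq'
  have hequiv : ∀ (g : G) (ω : Ω), π (g • ω) = g • π ω := by
    intro g ω
    refine (huniq _ _ ?_).symm
    exact Set.smul_mem_smul_set (hπ ω)
  have hsurj : Function.Surjective π := by
    rintro ⟨_, g, rfl⟩
    exact ⟨g • x, (huniq (g • x) _ (Set.smul_mem_smul_set hx)).symm⟩
  let q₀ : Q := ⟨B, MulAction.mem_orbit_self B⟩
  have hqx : π x = q₀ := (huniq x q₀ hx).symm
  have hqy : π y = q₀ := (huniq y q₀ hy).symm
  have hqz : π z ≠ q₀ := by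
    intro h
    apply hz
    have := hπ z
    rw [h] at this
    exact this
  have haN : Nat.card Q < Nat.card Ω := by
    haveI := Fintype.ofFinite Q
    haveI := Fintype.ofFinite Ω
    rw [Nat.card_eq_fintype_card, Nat.card_eq_fintype_card]
    exact Fintype.card_lt_of_surjective_not_injective π hsurj
      (fun hi => hxy (hi (hqx.trans hqy.symm)))
  have hQfin : Finite Q := inferInstance
  let f : G →* Equiv.Perm Q := MulAction.toPermHom G Q
  obtain ⟨l₁, l₂, hl', h₁, h₂⟩ := Ch.split_top f hl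
  haveI fQ : FaithfulSMul f.range Q := ⟨fun h => Subtype.ext (Equiv.ext h)⟩
  haveI fW : FaithfulSMul f.ker Ω := by
    refine ⟨fun {k₁ k₂} h => ?_⟩
    apply Subtype.ext
    apply FaithfulSMul.eq_of_smul_eq_smul (α := Ω)
    intro ω
    exact h ω
  have e1 := IH (Nat.card Q) (by omega) f.range Q (fun _ => 0) (by simp) rfl l₂ h₂
  have hone : (Set.range fun _ : Q => 0).ncard = 1 := by
    haveI : Nonempty Q := ⟨q₀⟩
    rw [Set.range_const, Set.ncard_singleton]
  rw [hone] at e1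
  let e := Finite.equivFin Q
  let φ' : Ω → ℕ := fun ω => (e (π ω)).val
  have hφ' : ∀ (k : f.ker) (ω : Ω), φ' (k • ω) = φ' ω := by
    intro k ω
    have h2 : f k = 1 := k.2
    have h3 : π (k • ω) = π ω := by
      rw [Subgroup.smul_def, hequiv]
      have h4 := congrArg (fun p : Equiv.Perm Q => p (π ω)) h2
      exact h4
    simp only [φ']
    rw [h3]
  have hrange : (Set.range φ').ncard = Nat.card Q := by
    have h3 : Set.range φ' = (fun i : Q => (e i).val) '' Set.univ := by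
      ext c
      constructor
      · rintro ⟨ω, rfl⟩
        exact ⟨π ω, trivial, rfl⟩
      · rintro ⟨q, -, rfl⟩
        obtain ⟨ω, rfl⟩ := hsurj q
        exact ⟨ω, rfl⟩
    rw [h3, Set.ncard_image_of_injective _ (fun a b hab => e.injective (Fin.ext hab)),
      Set.ncard_univ]
  have e2 := split_O IH f.ker Ω φ' hφ' hn {ω | φ' ω = φ' x} (by
    intro k ω hω
    change φ' (k • ω) = φ' x
    rw [hφ']
    exact hω) ⟨x, rfl⟩ ⟨z, by
    intro h
    apply hqz
    have : e (π z) = e (π x) := Fin.ext h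
    rw [e.injective this, hqx]⟩ l₁ h₁
  rw [hrange] at e2
  omega

/-- Reduction to primitive groups. -/
theorem step_of_prim {n : ℕ} (IH : ∀ m < n, PP.{v} m)
    (hprim : ∀ (G Ω : Type v) [Group G] [Finite G] [MulAction G Ω] [FaithfulSMul G Ω] [Finite Ω]
      [MulAction.IsPreprimitive G Ω], Nat.card Ω = n → 2 ≤ n → ∀ l, Ch (⊤ : Subgroup G) l →
      3 * l + 4 ≤ 4 * n) : PP.{v} n := by
  intro G Ω _ _ _ _ _ φ hφ hn l hl
  by_cases hsplit : ∃ O : Set Ω, (∀ (g : G) (ω : Ω), ω ∈ O → g • ω ∈ O) ∧ O.Nonempty ∧ Oᶜ.Nonempty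
  · obtain ⟨O, h1, h2, h3⟩ := hsplit
    exact split_O IH G Ω φ hφ hn O h1 h2 h3 l hl
  push Not at hsplit
  by_cases hem : IsEmpty Ω
  · have h1 : Subsingleton G := by
      refine ⟨fun a b => FaithfulSMul.eq_of_smul_eq_smul (α := Ω) fun ω => (hem.false ω).elim⟩
    have h2 := hl.of_subsingleton
    have h3 : Set.range φ = ∅ := Set.range_eq_empty φ
    rw [h3, h2]
    simp
  rw [not_isEmpty_iff] at hem
  obtain ⟨α⟩ := hem
  have horb : ∀ ω : Ω, ∃ g : G, g • α = ω := by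
    intro ω
    by_contra hc
    push Not at hc
    have := hsplit (MulAction.orbit G α) (by
      rintro g _ ⟨h, rfl⟩
      exact ⟨g * h, by simp [mul_smul]⟩) ⟨α, MulAction.mem_orbit_self α⟩
    exact Set.not_nonempty_iff_eq_empty.mpr this ⟨ω, by
      rintro ⟨g, hg⟩
      exact hc g hg⟩
  haveI htr : MulAction.IsPretransitive G Ω := by
    refine ⟨fun a b => ?_⟩
    obtain ⟨g, rfl⟩ := horb a
    obtain ⟨h, rfl⟩ := horb b
    exact ⟨h * g⁻¹, by simp [mul_smul]⟩
  have hone : (Set.range φ).ncard = 1 := by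
    have : Set.range φ = {φ α} := by
      ext c
      constructor
      · rintro ⟨ω, rfl⟩
        obtain ⟨g, rfl⟩ := horb ω
        rw [hφ]
        rfl
      · rintro rfl
        exact ⟨α, rfl⟩
    rw [this, Set.ncard_singleton]
  rw [hone]
  have hn1 : 1 ≤ n := by
    rw [← hn]
    exact Nat.card_pos_iff.mpr ⟨⟨α⟩, inferInstance⟩
  by_cases h2 : 2 ≤ n
  · by_cases hpp : MulAction.IsPreprimitive G Ω
    · exact hprim G Ω hn h2 l hl
    · obtain ⟨B, hB, hB'⟩ : ∃ B : Set Ω, MulAction.IsBlock G B ∧ ¬ MulAction.IsTrivialBlock B := by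
        by_contra hc
        push Not at hc
        exact hpp ⟨fun {B} hB => hc B hB⟩
      exact imprim_case IH G Ω hn B hB hB' l hl
  · have hn' : n = 1 := by omega
    subst hn'
    have hs : Subsingleton Ω := Nat.card_eq_one_iff_unique.mp hn |>.1
    have h3 : Subsingleton G := by
      refine ⟨fun a b => FaithfulSMul.eq_of_smul_eq_smul (α := Ω) fun ω => Subsingleton.elim _ _⟩
    rw [hl.of_subsingleton]

end Cfsg.Agent.Lib.CompLen
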