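import Mathlib
import Cfsg.Agent.Lib.CompLen.Reduce
import Cfsg.Agent.Lib.CompLen.Numeric

/-!
Primitive groups: the common part and the case of an abelian minimal normal subgroup.
-/

set_option autoImplicit false

namespace Cfsg.Agent.Lib.CompLen

universe v

open ArithmeticFunction MulAction

section common

variable {G Ω : Type v} [Group G] [Finite G] [MulAction G Ω] [FaithfulSMul G Ω] [Finite Ω]

theorem eq_one_of_fix {g : G} (h : ∀ ω : Ω, g • ω = ω) : g = 1 :=
  FaithfulSMul.eq_of_smul_eq_smul (α := Ω) fun ω => by rw [h ω, one_smul]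

theorem pretrans_of_normal [IsPreprimitive G Ω] (N : Subgroup G) [N.Normal] (hN : N ≠ ⊥) :
    IsPretransitive N Ω := by
  apply IsQuasiPreprimitive.isPretransitive_of_normal (G := G)
  intro h
  apply hN
  rw [eq_bot_iff]
  intro g hg
  rw [Subgroup.mem_bot]
  apply eq_one_of_fix (Ω := Ω)
  intro x
  have hx : x ∈ fixedPoints N Ω := by
    rw [h]
    trivial
  exact hx ⟨g, hg⟩

theorem exists_mem_smul (N : Subgroup G) [IsPretransitive N Ω] (α ω : Ω) :
    ∃ x ∈ N, x • α = ω := by
  obtain ⟨x, hx⟩ := MulAction.exists_smul_eq N α ω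
  exact ⟨x, x.2, hx⟩

theorem chain_lift (N : Subgroup G) [hNn : N.Normal] [IsPretransitive N Ω] (α : Ω) {l : ℕ}
    (hl : Ch (⊤ : Subgroup G) l) :
    ∃ l₁ l₂, l ≤ l₁ + l₂ ∧ Ch (⊤ : Subgroup N) l₁ ∧
      ∀ u, Ch (N.subgroupOf (stabilizer G α)) u →
        Ch (⊤ : Subgroup (stabilizer G α)) (u + l₂) := by
  let f := QuotientGroup.mk' N
  obtain ⟨l₁, l₂, h, h₁, h₂⟩ := Ch.split_surj f (QuotientGroup.mk'_surjective N) hl
  rw [QuotientGroup.ker_mk'] at h₁
  refine ⟨l₁, l₂, h, ?_, ?_⟩
  · have := Ch.subgroupOf N h₁ le_rfl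
    rwa [Subgroup.subgroupOf_self] at this
  · intro u hu
    let ρ : stabilizer G α →* G ⧸ N := f.comp (stabilizer G α).subtype
    have hρ : Function.Surjective ρ := by
      intro q
      obtain ⟨g, rfl⟩ := QuotientGroup.mk'_surjective N q
      obtain ⟨x, hx, hxg⟩ := exists_mem_smul (Ω := Ω) N α (g • α)
      refine ⟨⟨x⁻¹ * g, ?_⟩, ?_⟩
      · rw [mem_stabilizer_iff, mul_smul, ← hxg, smul_smul]
        simp
      · change (QuotientGroup.mk' N) (x⁻¹ * g) = (QuotientGroup.mk' N) g
        have hx1 : (QuotientGroup.mk' N) x = 1 := (QuotientGroup.eq_one_iff x).mpr hx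
        rw [map_mul, map_inv, hx1]
        simp
    have hk : ρ.ker = N.subgroupOf (stabilizer G α) := by
      ext y
      rw [MonoidHom.mem_ker, Subgroup.mem_subgroupOf]
      exact QuotientGroup.eq_one_iff _
    have := Ch.comap_surj ρ hρ (hk ▸ hu) h₂
    rwa [Subgroup.comap_top] at this

instance stab_faithful (α : Ω) : FaithfulSMul (stabilizer G α) (SubMulAction.ofStabilizer G α) := by
  refine ⟨fun {h₁ h₂} he => ?_⟩
  apply Subtype.ext
  apply FaithfulSMul.eq_of_smul_eq_smul (α := Ω)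
  intro ω
  by_cases hω : ω = α
  · subst hω
    rw [h₁.2, h₂.2]
  · exact congrArg Subtype.val (he ⟨ω, hω⟩)

/-- The inductive hypothesis for a point stabilizer. -/
theorem IH_stab {n : ℕ} (IH : ∀ m < n, PP.{v} m) (hn : Nat.card Ω = n) (h2 : 1 ≤ n) (α : Ω)
    (φ : SubMulAction.ofStabilizer G α → ℕ)
    (hφ : ∀ (h : stabilizer G α) (ω : SubMulAction.ofStabilizer G α), φ (h • ω) = φ ω)
    (l : ℕ) (hl : Ch (⊤ : Subgroup (stabilizer G α)) l) :
    3 * l + 4 * (Set.range φ).ncard ≤ 4 * (n - 1) := by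
  have hc : Nat.card (SubMulAction.ofStabilizer G α) = n - 1 := by
    rw [SubMulAction.nat_card_ofStabilizer_eq, hn]
  exact IH (n - 1) (by omega) (stabilizer G α) (SubMulAction.ofStabilizer G α) φ hφ hc l hl

theorem exists_ne_point (hn : 2 ≤ Nat.card Ω) (α : Ω) : ∃ ω : Ω, ω ≠ α := by
  have : Nontrivial Ω := (Finite.one_lt_card_iff_nontrivial).mp hn
  exact exists_ne α

end common

theorem abelian_case {n : ℕ} (IH : ∀ m < n, PP.{v} m) (G Ω : Type v) [Group G] [Finite G]
    [MulAction G Ω] [FaithfulSMul G Ω] [Finite Ω] [IsPreprimitive G Ω] (hn : Nat.card Ω = n)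
    (h2 : 2 ≤ n) (N : Subgroup G) [hNn : N.Normal] (hN : N ≠ ⊥)
    (hmin : ∀ M : Subgroup G, M.Normal → M ≤ N → M = ⊥ ∨ M = N)
    (hab : ∀ x ∈ N, ∀ y ∈ N, x * y = y * x) (l : ℕ) (hl : Ch (⊤ : Subgroup G) l) :
    3 * l + 4 ≤ 4 * n := by
  classical
  haveI hTr : IsPretransitive N Ω := pretrans_of_normal N hN
  obtain ⟨α⟩ : Nonempty Ω := by
    refine (Nat.card_pos_iff.mp ?_).1
    omega
  have hfix : ∀ x ∈ N, x • α = α → x = 1 := by
    intro x hx hxa
    apply eq_one_of_fix (Ω := Ω)
    intro ω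
    obtain ⟨y, hy, rfl⟩ := exists_mem_smul (Ω := Ω) N α ω
    rw [smul_smul, hab x hx y hy, mul_smul, hxa]
  have hcard : Nat.card N = n := by
    rw [← hn]
    refine Nat.card_congr (Equiv.ofBijective (fun x : N => (x : G) • α) ⟨?_, ?_⟩)
    · intro x y hxy
      have hxy' : (x : G) • α = (y : G) • α := hxy
      have h1 : ((y : G)⁻¹ * x) • α = α := by
        rw [mul_smul, hxy', inv_smul_smul]
      have h3 := hfix _ (N.mul_mem (N.inv_mem y.2) x.2) h1
      apply Subtype.ext
      exact (inv_mul_eq_one.mp h3).symm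
    · intro ω
      obtain ⟨x, hx, rfl⟩ := exists_mem_smul (Ω := Ω) N α ω
      exact ⟨⟨x, hx⟩, rfl⟩
  obtain ⟨p, hp, hpd⟩ := Nat.exists_prime_and_dvd (n := Nat.card N) (by omega)
  haveI : Fact p.Prime := ⟨hp⟩
  -- exponent `p`
  let K : Subgroup G :=
    { carrier := {x | x ∈ N ∧ x ^ p = 1}
      mul_mem' := by
        rintro a b ⟨ha, hap⟩ ⟨hb, hbp⟩
        refine ⟨N.mul_mem ha hb, ?_⟩
        have hc : Commute a b := hab a ha b hb
        rw [hc.mul_pow, hap, hbp, one_mul]
      one_mem' := ⟨N.one_mem, one_pow p⟩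
      inv_mem' := by
        rintro a ⟨ha, hap⟩
        exact ⟨N.inv_mem ha, by rw [inv_pow, hap, inv_one]⟩ }
  have hKn : K.Normal := by
    refine ⟨fun x hx g => ⟨hNn.conj_mem x hx.1 g, ?_⟩⟩
    rw [conj_pow, hx.2]
    simp
  have hKb : K ≠ ⊥ := by
    obtain ⟨x, hx⟩ := exists_prime_orderOf_dvd_card' p hpd
    intro h0
    have h3 : (x : G) ∈ K := ⟨x.2, by
      have := pow_orderOf_eq_one x
      rw [hx] at this
      exact congrArg Subtype.val this⟩
    rw [h0, Subgroup.mem_bot] at h3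
    have h4 : x = 1 := Subtype.ext h3
    rw [h4, orderOf_one] at hx
    exact hp.one_lt.ne hx
  have hKN : K = N := (hmin K hKn (fun x hx => hx.1)).resolve_left hKb
  have hexp : ∀ x ∈ N, x ^ p = 1 := by
    intro x hx
    rw [← hKN] at hx
    exact hx.2
  have hpg : IsPGroup p N := by
    intro x
    refine ⟨1, ?_⟩
    rw [pow_one]
    exact Subtype.ext (hexp x x.2)
  obtain ⟨k, hk⟩ := IsPGroup.iff_card.mp hpg
  have hnp : n = p ^ k := by rw [← hcard, hk]
  have hk1 : 1 ≤ k := by
    rcases Nat.eq_zero_or_pos k with h0 | h0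
    · subst h0
      simp at hnp
      omega
    · exact h0
  have hom : cardFactors (Nat.card N) = k := by
    rw [hk, cardFactors_apply_prime_pow hp]
  obtain ⟨l₁, l₂, hll, h₁, h₂⟩ := chain_lift N α hl
  have hl1 : l₁ ≤ k := by
    have := h₁.le_om
    rwa [Subgroup.card_top, hom] at this
  have hU : N.subgroupOf (stabilizer G α) = ⊥ := by
    rw [eq_bot_iff]
    intro x hx
    rw [Subgroup.mem_bot]
    apply Subtype.ext
    exact hfix _ hx x.2
  have hc2 := h₂ 0 (by rw [hU]; exact Ch.base)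
  rw [zero_add] at hc2
  -- counting
  obtain ⟨s, hs, hsc⟩ := exists_gens N
  rw [hom] at hsc
  have hHcard : Nat.card (stabilizer G α) ≤ n ^ k := by
    have h3 := card_le_pow_of_gens s N (stabilizer G α) hs hNn (by
      intro g hg hcomm
      apply eq_one_of_fix (Ω := Ω)
      intro ω
      obtain ⟨y, hy, rfl⟩ := exists_mem_smul (Ω := Ω) N α ω
      have h4 : g * y = y * g := by
        have := hcomm y hy
        calc g * y = (g * y * g⁻¹) * g := by group
          _ = y * g := by rw [this]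
      rw [smul_smul, h4, mul_smul, hg])
    rw [hcard] at h3
    exact h3.trans (Nat.pow_le_pow_right (by omega) hsc)
  have h5 : 2 ^ l₂ ≤ n ^ k := by
    have := hc2.two_pow_le
    rw [Subgroup.card_top] at this
    exact this.trans hHcard
  have h6 : 3 * l₂ + 4 ≤ 4 * (n - 1) := by
    have h7 := IH_stab IH hn (by omega) α (fun _ => 0) (by simp) l₂ hc2
    have hne : Nonempty (SubMulAction.ofStabilizer G α) := by
      obtain ⟨ω, hω⟩ := exists_ne_point (Ω := Ω) (by omega) α
      exact ⟨⟨ω, hω⟩⟩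
    rw [Set.range_const, Set.ncard_singleton] at h7
    exact h7
  have h8 : n = 8 → l₂ ≤ 6 := by
    intro h8
    have h9 : Nat.card (stabilizer G α) ∣ 5040 := by
      have h10 : Nat.card (stabilizer G α) ∣ Nat.card (Equiv.Perm (SubMulAction.ofStabilizer G α)) :=
        Subgroup.card_dvd_of_injective (MulAction.toPermHom (stabilizer G α) _)
          (MulAction.toPerm_injective)
      have h11 : Nat.card (SubMulAction.ofStabilizer G α) = 7 := by
        rw [SubMulAction.nat_card_ofStabilizer_eq, hn, h8]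
      haveI := Fintype.ofFinite (SubMulAction.ofStabilizer G α)
      rw [Nat.card_eq_fintype_card (α := Equiv.Perm _), Fintype.card_perm,
        ← Nat.card_eq_fintype_card, h11] at h10
      exact h10
    have h10 : p ^ k = 8 := by rw [← hnp, h8]
    have hk3 : k = 3 := by
      have hp2 : p = 2 := by
        have : p ∣ 2 ^ 3 := by
          have hd : p ∣ p ^ k := dvd_pow_self p (by omega)
          rw [h10] at hd
          exact hd
        exact (Nat.prime_dvd_prime_iff_eq hp Nat.prime_two).mp (hp.dvd_of_dvd_pow this)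
      subst hp2
      exact Nat.pow_right_injective le_rfl (h10.trans (by norm_num))
    have h12 : Nat.card (stabilizer G α) ≤ 512 := by
      rw [h8, hk3] at hHcard
      simpa using hHcard
    have h13 := hc2.le_om
    rw [Subgroup.card_top] at h13
    exact h13.trans (om_bound h9 h12)
  have h9 := numA hp hk1 hnp h5 h6 h8
  omega

end Cfsg.Agent.Lib.CompLen
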