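import Mathlib
import Cfsg.Agent.Lib.CompLen.Prim
import Cfsg.Agent.Lib.Perm.MinNormalPower

/-!
Coordinates in a minimal normal subgroup `N ≃ T ^ m` and the induced permutation of coordinates.
-/

set_option autoImplicit false

namespace Cfsg.Agent.Lib.CompLen

universe v

open MulAction Cfsg.Agent.Lib.Perm.MinNormal

section coord

variable {G : Type v} [Group G] {N : Subgroup G} {T : Type v} [Group T] {m : ℕ}
  (e : N ≃* (Fin m → T))

/-- Embedding of the `i`-th coordinate. -/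
def ll (i : Fin m) : T →* G :=
  N.subtype.comp (e.symm.toMonoidHom.comp (MonoidHom.mulSingle (fun _ => T) i))

theorem ll_mem (i : Fin m) (t : T) : ll e i t ∈ N := (e.symm (Pi.mulSingle i t)).2

theorem ll_eq (i : Fin m) (t : T) : (⟨ll e i t, ll_mem e i t⟩ : N) = e.symm (Pi.mulSingle i t) := rfl

theorem e_ll (i : Fin m) (t : T) : e ⟨ll e i t, ll_mem e i t⟩ = Pi.mulSingle i t := by
  rw [ll_eq, e.apply_symm_apply]

theorem ll_inj (i : Fin m) : Function.Injective (ll e i) := by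
  intro s t hst
  have h1 : (⟨ll e i s, ll_mem e i s⟩ : N) = ⟨ll e i t, ll_mem e i t⟩ := Subtype.ext hst
  have h2 := congrArg e h1
  rw [e_ll, e_ll] at h2
  exact Pi.mulSingle_injective i h2

/-- The `i`-th coordinate subgroup. -/
def Ll (i : Fin m) : Subgroup G := (ll e i).range

/-- The elements of `N` with trivial `i`-th coordinate. -/
def Cc (i : Fin m) : Subgroup G :=
  ((Pi.evalMonoidHom (fun _ => T) i).comp e.toMonoidHom).ker.map N.subtype

theorem mem_Cc_iff (i : Fin m) (x : N) : (x : G) ∈ Cc e i ↔ e x i = 1 := by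
  constructor
  · rintro ⟨y, hy, hyx⟩
    have : y = x := Subtype.ext hyx
    rw [← this]
    exact hy
  · intro h
    exact ⟨x, h, rfl⟩

theorem Cc_le (i : Fin m) : Cc e i ≤ N := by
  rintro _ ⟨y, -, rfl⟩
  exact y.2

theorem comm_of_coord (i : Fin m) (x : N) (hx : e x i = 1) (t : T) :
    (x : G) * ll e i t = ll e i t * x := by
  have key : x * e.symm (Pi.mulSingle i t) = e.symm (Pi.mulSingle i t) * x := by
    apply e.injective
    rw [map_mul, map_mul, e.apply_symm_apply]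
    funext j
    by_cases hj : j = i
    · subst hj
      simp [hx]
    · simp [Pi.mulSingle_eq_of_ne hj]
  exact congrArg Subtype.val key

theorem coord_of_comm (hZ : ∀ t : T, (∀ y, t * y = y * t) → t = 1) (i : Fin m) (x : N)
    (h : ∀ t, (x : G) * ll e i t = ll e i t * x) : e x i = 1 := by
  apply hZ
  intro y
  have h1 : x * e.symm (Pi.mulSingle i y) = e.symm (Pi.mulSingle i y) * x := Subtype.ext (h y)
  have h2 := congrArg e h1
  rw [map_mul, map_mul, e.apply_symm_apply] at h2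
  have h3 := congrFun h2 i
  simpa using h3

theorem ll_conj (i : Fin m) (n : N) (t : T) :
    (n : G) * ll e i t * (n : G)⁻¹ = ll e i (e n i * t * (e n i)⁻¹) := by
  have key : n * e.symm (Pi.mulSingle i t) * n⁻¹ = e.symm (Pi.mulSingle i (e n i * t * (e n i)⁻¹)) := by
    apply e.injective
    rw [map_mul, map_mul, map_inv, e.apply_symm_apply, e.apply_symm_apply]
    funext j
    by_cases hj : j = i
    · subst hj
      simp
    · simp [Pi.mulSingle_eq_of_ne hj]
  exact congrArg Subtype.val key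

theorem mem_Cc_iff' (hZ : ∀ t : T, (∀ y, t * y = y * t) → t = 1) (i : Fin m) (x : G) :
    x ∈ Cc e i ↔ x ∈ N ∧ ∀ y ∈ Ll e i, x * y = y * x := by
  constructor
  · intro hx
    have hxN := Cc_le e i hx
    refine ⟨hxN, ?_⟩
    rintro _ ⟨t, rfl⟩
    exact comm_of_coord e i ⟨x, hxN⟩ ((mem_Cc_iff e i ⟨x, hxN⟩).mp hx) t
  · rintro ⟨hxN, h⟩
    refine (mem_Cc_iff e i ⟨x, hxN⟩).mpr (coord_of_comm e hZ i ⟨x, hxN⟩ ?_)
    intro t
    exact h _ ⟨t, rfl⟩

variable [Finite G]

theorem isMin_Ll [IsSimpleGroup T] (i : Fin m) : IsMin N (Ll e i) := by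
  refine ⟨⟨?_, ?_, ?_⟩, ?_⟩
  · intro h0
    obtain ⟨t, ht⟩ := exists_ne (1 : T)
    have : ll e i t ∈ Ll e i := ⟨t, rfl⟩
    rw [h0, Subgroup.mem_bot] at this
    exact ht (ll_inj e i (by rw [this, map_one]))
  · rintro _ ⟨t, rfl⟩
    exact ll_mem e i t
  · intro n hn
    apply Cfsg.Agent.Lib.Transfer.mem_normalizer_of_conj_mem
    rintro _ ⟨t, rfl⟩
    rw [show n = ((⟨n, hn⟩ : N) : G) from rfl, ll_conj]
    exact ⟨_, rfl⟩
  · rintro L' ⟨h1, h2, h3⟩ hle
    let P : Subgroup T := L'.comap (ll e i)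
    have hP : P.Normal := ⟨fun t ht y => by
      change ll e i (y * t * y⁻¹) ∈ L'
      rw [map_mul, map_mul, map_inv]
      exact conj_mem_of_normalizer (h3 (ll_mem e i y)) ht⟩
    rcases hP.eq_bot_or_eq_top with h0 | h0
    · exfalso
      apply h1
      rw [eq_bot_iff]
      intro x hx
      obtain ⟨t, rfl⟩ := hle hx
      have : t ∈ P := hx
      rw [h0, Subgroup.mem_bot] at this
      rw [this, map_one]
      exact one_mem _
    · apply le_antisymm hle
      rintro _ ⟨t, rfl⟩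
      have : t ∈ P := by
        rw [h0]
        trivial
      exact this

theorem exists_eq_Ll [IsSimpleGroup T] (hZ : ∀ t : T, (∀ y, t * y = y * t) → t = 1)
    {L : Subgroup G} (hL : IsMin N L) : ∃ i, L = Ll e i := by
  by_contra hc
  push Not at hc
  apply hL.1.1
  rw [eq_bot_iff]
  intro x hx
  rw [Subgroup.mem_bot]
  have hxN := hL.1.2.1 hx
  have h1 : e ⟨x, hxN⟩ = 1 := by
    funext i
    apply coord_of_comm e hZ i ⟨x, hxN⟩
    intro t
    exact hL.commute (isMin_Ll e i) (hc i) hx ⟨t, rfl⟩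
  have h2 : (⟨x, hxN⟩ : N) = 1 := by
    simpa using h1
  exact congrArg Subtype.val h2

theorem Ll_injective [IsSimpleGroup T] : Function.Injective (Ll e) := by
  intro i j hij
  by_contra hne
  obtain ⟨t, ht⟩ := exists_ne (1 : T)
  have h1 : ll e i t ∈ Ll e j := by
    rw [← hij]
    exact ⟨t, rfl⟩
  obtain ⟨s, hs⟩ := h1
  have h2 : (⟨ll e j s, ll_mem e j s⟩ : N) = ⟨ll e i t, ll_mem e i t⟩ := Subtype.ext hs
  have h3 := congrArg e h2
  rw [e_ll, e_ll] at h3
  have h4 := congrFun h3 i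
  rw [Pi.mulSingle_eq_same, Pi.mulSingle_eq_of_ne hne] at h4
  exact ht h4.symm

theorem exists_sigma [N.Normal] [IsSimpleGroup T] (hZ : ∀ t : T, (∀ y, t * y = y * t) → t = 1) :
    ∃ σ : G → Fin m → Fin m, ∀ g i, (Ll e i).map (MulAut.conj g).toMonoidHom = Ll e (σ g i) := by
  have h : ∀ g i, ∃ j, (Ll e i).map (MulAut.conj g).toMonoidHom = Ll e j :=
    fun g i => exists_eq_Ll e hZ ((isMin_Ll e i).conj g)
  choose σ hσ using h
  exact ⟨σ, hσ⟩

variable {σ : G → Fin m → Fin m}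
  (hσ : ∀ g i, (Ll e i).map (MulAut.conj g).toMonoidHom = Ll e (σ g i))

include hσ

theorem conj_mem_Ll {g : G} {i : Fin m} {y : G} (hy : y ∈ Ll e i) : g * y * g⁻¹ ∈ Ll e (σ g i) := by
  rw [← hσ]
  exact ⟨y, hy, rfl⟩

theorem conj_inv_mem_Ll {g : G} {i : Fin m} {y : G} (hy : y ∈ Ll e (σ g i)) :
    g⁻¹ * y * g ∈ Ll e i := by
  rw [← hσ] at hy
  obtain ⟨z, hz, rfl⟩ := hy
  have : g⁻¹ * ((MulAut.conj g).toMonoidHom z) * g = z := by
    simp only [MulEquiv.coe_toMonoidHom, MulAut.conj_apply]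
    group
  rw [this]
  exact hz

theorem conj_Cc [N.Normal] (hZ : ∀ t : T, (∀ y, t * y = y * t) → t = 1) {g x : G} {i : Fin m}
    (hx : x ∈ Cc e i) : g * x * g⁻¹ ∈ Cc e (σ g i) := by
  rw [mem_Cc_iff' e hZ] at hx ⊢
  refine ⟨‹N.Normal›.conj_mem x hx.1 g, ?_⟩
  intro y hy
  have h1 := hx.2 _ (conj_inv_mem_Ll e hσ hy)
  calc g * x * g⁻¹ * y = g * (x * (g⁻¹ * y * g)) * g⁻¹ := by group
    _ = g * ((g⁻¹ * y * g) * x) * g⁻¹ := by rw [h1]
    _ = y * (g * x * g⁻¹) := by group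

theorem conj_inv_Cc [N.Normal] (hZ : ∀ t : T, (∀ y, t * y = y * t) → t = 1) {g x : G} {i : Fin m}
    (hx : x ∈ Cc e (σ g i)) : g⁻¹ * x * g ∈ Cc e i := by
  rw [mem_Cc_iff' e hZ] at hx ⊢
  refine ⟨?_, ?_⟩
  · have := ‹N.Normal›.conj_mem x hx.1 g⁻¹
    simpa using this
  intro y hy
  have h1 := hx.2 _ (conj_mem_Ll e hσ (g := g) hy)
  calc g⁻¹ * x * g * y = g⁻¹ * (x * (g * y * g⁻¹)) * g := by group
    _ = g⁻¹ * ((g * y * g⁻¹) * x) * g := by rw [h1]
    _ = y * (g⁻¹ * x * g) := by group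

theorem sigma_injective [IsSimpleGroup T] (g : G) : Function.Injective (σ g) := by
  intro i j hij
  apply Ll_injective e
  have h1 := hσ g i
  rw [hij, ← hσ g j] at h1
  exact Subgroup.map_injective (MulAut.conj g).injective h1

theorem sigma_surjective [IsSimpleGroup T] (g : G) : Function.Surjective (σ g) :=
  Finite.injective_iff_surjective.mp (sigma_injective e hσ g)

theorem sigma_mul (x h : G) (i : Fin m) [IsSimpleGroup T] : σ (x * h) i = σ x (σ h i) := by
  apply Ll_injective e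
  rw [← hσ, ← hσ, ← hσ, Subgroup.map_map]
  congr 1
  ext y
  simp [MulAut.conj_apply, mul_assoc]

theorem sigma_of_mem [IsSimpleGroup T] {x : G} (hx : x ∈ N) (i : Fin m) : σ x i = i := by
  apply Ll_injective e
  have hle : Ll e (σ x i) ≤ Ll e i := by
    rw [← hσ]
    rintro _ ⟨y, hy, rfl⟩
    exact conj_mem_of_normalizer ((isMin_Ll e i).1.2.2 hx) hy
  exact (isMin_Ll e i).2 _ (isMin_Ll e (σ x i)).1 hle

theorem sigma_trans_G [hNn : N.Normal] [IsSimpleGroup T]
    (hZ : ∀ t : T, (∀ y, t * y = y * t) → t = 1)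
    (hmin : ∀ M : Subgroup G, M.Normal → M ≤ N → M = ⊥ ∨ M = N) (i j : Fin m) :
    ∃ g, σ g i = j := by
  by_contra hc
  push Not at hc
  have h1 : Subgroup.normalClosure (Ll e i : Set G) ≤ N :=
    Subgroup.normalClosure_le_normal (isMin_Ll e i).1.2.1
  have h2 : Subgroup.normalClosure (Ll e i : Set G) ≠ ⊥ := by
    intro h0
    apply (isMin_Ll e i).1.1
    rw [eq_bot_iff, ← h0]
    exact Subgroup.le_normalClosure
  have h3 := (hmin _ inferInstance h1).resolve_left h2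
  have h4 : N ≤ Subgroup.centralizer (Ll e j : Set G) := by
    refine h3.symm.le.trans ?_
    apply (Subgroup.closure_le _).mpr
    intro y hy
    obtain ⟨b, hb, hby⟩ := Group.mem_conjugatesOfSet_iff.mp hy
    obtain ⟨c, rfl⟩ := isConj_iff.mp hby
    have h5 : c * b * c⁻¹ ∈ Ll e (σ c i) := conj_mem_Ll e hσ hb
    rw [SetLike.mem_coe, Subgroup.mem_centralizer_iff]
    intro z hz
    have h6 : Ll e (σ c i) ≠ Ll e j := fun he => hc c (Ll_injective e he)
    exact ((isMin_Ll e (σ c i)).commute (isMin_Ll e j) h6 h5 hz).symm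
  obtain ⟨t, ht⟩ := exists_ne (1 : T)
  apply ht
  apply hZ
  intro y
  have h5 := h4 (ll_mem e j t)
  rw [Subgroup.mem_centralizer_iff] at h5
  have h6 := h5 (ll e j y) ⟨y, rfl⟩
  apply ll_inj e j
  rw [map_mul, map_mul]
  exact h6.symm

end coord

section action

variable {G Ω : Type v} [Group G] [Finite G] [MulAction G Ω] {N : Subgroup G} {T : Type v} [Group T]
  {m : ℕ} (e : N ≃* (Fin m → T))

/-- The coordinates whose kernel does not move `α` to `ω`. -/
def Sset (α ω : Ω) : Set (Fin m) := {i | ∀ c ∈ Cc e i, c • α ≠ ω}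

/-- The `i`-th coordinate kernel is intransitive. -/
def Gd (α : Ω) (i : Fin m) : Prop := ∃ x ∈ N, ∀ c ∈ Cc e i, c • α ≠ x • α

theorem notMem_Sset_self (α : Ω) (i : Fin m) : i ∉ Sset e α α := by
  intro h
  exact h 1 (one_mem _) (one_smul _ _)

theorem exists_Sset (α : Ω) (hG : ∀ i, Gd e α i) (J : Finset (Fin m)) :
    ∃ ω : Ω, Sset e α ω = (J : Set (Fin m)) := by
  classical
  choose x hx hx' using hG
  let z : N := e.symm (fun i => if i ∈ J then e ⟨x i, hx i⟩ i else 1)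
  have hz : ∀ i, e z i = if i ∈ J then e ⟨x i, hx i⟩ i else 1 := by
    intro i
    simp [z]
  refine ⟨(z : G) • α, ?_⟩
  ext i
  rw [Finset.mem_coe]
  constructor
  · intro hi
    by_contra hiJ
    have h1 : (z : G) ∈ Cc e i := by
      rw [mem_Cc_iff, hz, if_neg hiJ]
    exact hi _ h1 rfl
  · intro hi c hc hcz
    have h1 : (x i) * (z : G)⁻¹ ∈ Cc e i := by
      have h2 : (x i) * (z : G)⁻¹ = ((⟨x i, hx i⟩ * z⁻¹ : N) : G) := rfl
      rw [h2, mem_Cc_iff, map_mul, map_inv, Pi.mul_apply, Pi.inv_apply, hz, if_pos hi]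
      simp
    have h3 := (Cc e i).mul_mem h1 hc
    apply hx' i _ h3
    rw [mul_smul, hcz, smul_smul]
    simp

variable {σ : G → Fin m → Fin m}
  (hσ : ∀ g i, (Ll e i).map (MulAut.conj g).toMonoidHom = Ll e (σ g i))

include hσ

theorem Sset_smul [N.Normal] (hZ : ∀ t : T, (∀ y, t * y = y * t) → t = 1) {α : Ω} {h : G}
    (hh : h • α = α) (ω : Ω) (i : Fin m) : i ∈ Sset e α ω ↔ σ h i ∈ Sset e α (h • ω) := by
  constructor
  · intro hi c hc hcω
    apply hi _ (conj_inv_Cc e hσ hZ hc)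
    have h1 : h⁻¹ • α = α := by
      rw [inv_smul_eq_iff, hh]
    rw [mul_smul, mul_smul, hh, hcω, inv_smul_smul]
  · intro hi c hc hcω
    apply hi _ (conj_Cc e hσ hZ hc)
    have h1 : h⁻¹ • α = α := by
      rw [inv_smul_eq_iff, hh]
    rw [mul_smul, mul_smul, h1, hcω]

theorem Sset_ncard [N.Normal] [IsSimpleGroup T] (hZ : ∀ t : T, (∀ y, t * y = y * t) → t = 1)
    {α : Ω} {h : G} (hh : h • α = α) (ω : Ω) :
    (Sset e α (h • ω)).ncard = (Sset e α ω).ncard := by
  have h1 : Sset e α (h • ω) = σ h '' Sset e α ω := by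
    ext j
    obtain ⟨i, rfl⟩ := sigma_surjective e hσ h j
    constructor
    · intro hj
      exact ⟨i, (Sset_smul e hσ hZ hh ω i).mpr hj, rfl⟩
    · rintro ⟨i', hi', hii'⟩
      rw [← hii']
      exact (Sset_smul e hσ hZ hh ω i').mp hi'
  rw [h1, Set.ncard_image_of_injective _ (sigma_injective e hσ h)]

theorem sigma_trans [hNn : N.Normal] [IsPretransitive N Ω] [IsSimpleGroup T]
    (hZ : ∀ t : T, (∀ y, t * y = y * t) → t = 1)
    (hmin : ∀ M : Subgroup G, M.Normal → M ≤ N → M = ⊥ ∨ M = N) (α : Ω) (i j : Fin m) :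
    ∃ h : G, h • α = α ∧ σ h i = j := by
  obtain ⟨g, hg⟩ := sigma_trans_G e hσ hZ hmin i j
  obtain ⟨x, hx⟩ := MulAction.exists_smul_eq N α (g • α)
  refine ⟨(x : G)⁻¹ * g, ?_, ?_⟩
  · rw [mul_smul, ← hx, Subgroup.smul_def, inv_smul_smul]
  · have h1 : g = (x : G) * ((x : G)⁻¹ * g) := by group
    rw [h1, sigma_mul e hσ, sigma_of_mem e hσ x.2] at hg
    exact hg

theorem notGd_all [hNn : N.Normal] [IsPretransitive N Ω] [IsSimpleGroup T]
    (hZ : ∀ t : T, (∀ y, t * y = y * t) → t = 1)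
    (hmin : ∀ M : Subgroup G, M.Normal → M ≤ N → M = ⊥ ∨ M = N) (α : Ω) {i : Fin m}
    (hi : ¬ Gd e α i) (j : Fin m) : ¬ Gd e α j := by
  obtain ⟨h, hh, rfl⟩ := sigma_trans e hσ hZ hmin α i j
  rintro ⟨x, hx, hx'⟩
  apply hi
  have hh' : h⁻¹ • α = α := by
    rw [inv_smul_eq_iff, hh]
  refine ⟨h⁻¹ * x * h, ?_, ?_⟩
  · have := hNn.conj_mem x hx h⁻¹
    simpa using this
  · intro c hc hce
    apply hx' _ (conj_Cc e hσ hZ hc)
    rw [mul_smul, mul_smul, hh', hce]
    rw [mul_smul, mul_smul, hh, smul_inv_smul]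

end action

end Cfsg.Agent.Lib.CompLen
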