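import Mathlib

/-!
Subdirect subgroups of powers of a nonabelian simple group without coordinate subgroups.
-/

set_option autoImplicit false

namespace Cfsg.Agent.Lib.CompLen

universe u v w

section abstract

variable {V : Type u} [Group V] {T : Type v} [Group T]

theorem map_inf_eq_top_of_perfect (hT : commutator T = ⊤) (f : V →* T) (A B : Subgroup V)
    [A.Normal] [B.Normal] (hA : A.map f = ⊤) (hB : B.map f = ⊤) : (A ⊓ B).map f = ⊤ := by
  rw [eq_top_iff]
  calc (⊤ : Subgroup T) = commutator T := hT.symm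
    _ = ⁅A.map f, B.map f⁆ := by rw [hA, hB]; rfl
    _ = (⁅A, B⁆).map f := (Subgroup.map_commutator _ _ _).symm
    _ ≤ (A ⊓ B).map f := Subgroup.map_mono (Subgroup.commutator_le_inf A B)

/-- Distinct kernels of surjections onto a simple group project onto. -/
theorem map_ker_eq_top [IsSimpleGroup T] (f g : V →* T) (hf : Function.Surjective f)
    (hg : Function.Surjective g) (hne : g.ker ≠ f.ker) : g.ker.map f = ⊤ := by
  have hN : (g.ker.map f).Normal := Subgroup.Normal.map inferInstance f hf
  rcases hN.eq_bot_or_eq_top with h1 | h1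
  swap
  · exact h1
  exfalso
  have hle : g.ker ≤ f.ker := (Subgroup.map_eq_bot_iff _).mp h1
  have hN2 : (f.ker.map g).Normal := Subgroup.Normal.map inferInstance g hg
  rcases hN2.eq_bot_or_eq_top with h2 | h2
  · exact hne (le_antisymm hle ((Subgroup.map_eq_bot_iff _).mp h2))
  · -- every element is in the kernel of `f`
    have hall : ∀ v, v ∈ f.ker := by
      intro v
      have h3 : g v ∈ f.ker.map g := by
        rw [h2]
        trivial
      obtain ⟨w, hw, hwv⟩ := h3
      have h4 : w⁻¹ * v ∈ g.ker := by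
        change g (w⁻¹ * v) = 1
        rw [map_mul, map_inv, hwv]
        simp
      have := f.ker.mul_mem hw (hle h4)
      simpa using this
    obtain ⟨t, ht⟩ := exists_ne (1 : T)
    obtain ⟨v, rfl⟩ := hf t
    exact ht (hall v)

theorem isolated_surj [IsSimpleGroup T] (hT : commutator T = ⊤) {ι : Type w} [DecidableEq ι]
    (f : ι → V →* T) (hf : ∀ i, Function.Surjective (f i)) (i : ι)
    (hi : ∀ j, j ≠ i → (f j).ker ≠ (f i).ker) (J : Finset ι) (hJ : i ∉ J) :
    (J.inf fun j => (f j).ker).map (f i) = ⊤ ∧ (J.inf fun j => (f j).ker).Normal := by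
  induction J using Finset.induction_on with
  | empty =>
    refine ⟨?_, ?_⟩
    · rw [Finset.inf_empty]
      exact Subgroup.map_top_of_surjective _ (hf i)
    · rw [Finset.inf_empty]
      infer_instance
  | insert j J hj ih =>
    have hji : j ≠ i := fun h => hJ (by rw [h]; exact Finset.mem_insert_self _ _)
    have hiJ : i ∉ J := fun h => hJ (Finset.mem_insert_of_mem h)
    obtain ⟨h1, h2⟩ := ih hiJ
    rw [Finset.inf_insert]
    have h3 := map_ker_eq_top (f i) (f j) (hf i) (hf j) (hi j hji)
    refine ⟨map_inf_eq_top_of_perfect hT (f i) _ _ h3 h1, ?_⟩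
    exact Subgroup.normal_inf_normal _ _

end abstract

section concrete

variable {ι : Type u} [Fintype ι] [DecidableEq ι] {T : Type v} [Group T] [Finite T]

/-- The order of a subdirect subgroup without coordinate subgroups is at most the square root. -/
theorem subdirect_card [IsSimpleGroup T] (hT : commutator T = ⊤) (V : Subgroup (ι → T))
    (hsub : ∀ i t, ∃ v ∈ V, v i = t) (hno : ∀ i, ∃ t, Pi.mulSingle i t ∉ V) :
    Nat.card V ^ 2 ≤ Nat.card T ^ Fintype.card ι := by
  classical
  let f : ι → (V →* T) := fun i => (Pi.evalMonoidHom (fun _ => T) i).comp V.subtype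
  have hfa : ∀ i (v : V), f i v = (v : ι → T) i := fun _ _ => rfl
  have hf : ∀ i, Function.Surjective (f i) := by
    intro i t
    obtain ⟨v, hv, rfl⟩ := hsub i t
    exact ⟨⟨v, hv⟩, rfl⟩
  have hpart : ∀ i, ∃ j, j ≠ i ∧ (f j).ker = (f i).ker := by
    intro i
    by_contra hc
    push Not at hc
    obtain ⟨t, ht⟩ := hno i
    have h1 := (isolated_surj hT f hf i hc (Finset.univ.erase i) (by simp)).1
    have h2 : t ∈ ((Finset.univ.erase i).inf fun j => (f j).ker).map (f i) := by
      rw [h1]
      trivial
    obtain ⟨v, hv, hvt⟩ := h2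
    apply ht
    have hv2 : (v : ι → T) = Pi.mulSingle i t := by
      funext j
      by_cases hj : j = i
      · rw [hj, Pi.mulSingle_eq_same]
        exact hvt
      · have h3 : v ∈ (f j).ker :=
          (Finset.inf_le (f := fun j => (f j).ker)
            (Finset.mem_erase.mpr ⟨hj, Finset.mem_univ _⟩)) hv
        have h4 : f j v = 1 := h3
        rw [Pi.mulSingle_eq_of_ne hj, ← hfa, h4]
    rw [← hv2]
    exact v.2
  let g : ι → Subgroup V := fun i => (f i).ker
  let Q : Finset (Subgroup V) := Finset.univ.image g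
  have hcount : Q.card * 2 ≤ Fintype.card ι := by
    have h1 : (Finset.univ : Finset ι).card = ∑ b ∈ Q, (Finset.univ.filter fun a => g a = b).card :=
      Finset.card_eq_sum_card_image g Finset.univ
    have h2 : Q.card • 2 ≤ ∑ b ∈ Q, (Finset.univ.filter fun a => g a = b).card := by
      apply Finset.card_nsmul_le_sum
      intro b hb
      obtain ⟨i, -, rfl⟩ := Finset.mem_image.mp hb
      obtain ⟨j, hj, hji⟩ := hpart i
      have : 1 < (Finset.univ.filter fun a => g a = g i).card :=
        Finset.one_lt_card.mpr ⟨i, by simp, j, by simpa using hji, hj.symm⟩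
      omega
    rw [← h1, smul_eq_mul] at h2
    simpa using h2
  have hpick : ∀ q : Q, ∃ i, g i = q := by
    intro q
    obtain ⟨i, -, hi⟩ := Finset.mem_image.mp q.2
    exact ⟨i, hi⟩
  choose pick hpick using hpick
  let F : V → (Q → T) := fun v q => f (pick q) v
  have hF : Function.Injective F := by
    intro v w hvw
    apply Subtype.ext
    funext i
    have hiQ : g i ∈ Q := Finset.mem_image_of_mem g (Finset.mem_univ i)
    have h1 : f (pick ⟨g i, hiQ⟩) v = f (pick ⟨g i, hiQ⟩) w := congrFun hvw ⟨g i, hiQ⟩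
    have h2 : (f (pick ⟨g i, hiQ⟩)).ker = (f i).ker := hpick ⟨g i, hiQ⟩
    have h3 : w⁻¹ * v ∈ (f (pick ⟨g i, hiQ⟩)).ker := by
      change f _ (w⁻¹ * v) = 1
      rw [map_mul, map_inv, h1]
      simp
    rw [h2] at h3
    have h4 : f i (w⁻¹ * v) = 1 := h3
    rw [map_mul, map_inv, inv_mul_eq_one] at h4
    exact h4.symm
  have h1 := Nat.card_le_card_of_injective F hF
  rw [Nat.card_fun, Nat.card_eq_fintype_card (α := Q), Fintype.card_coe] at h1
  have hTpos : 0 < Nat.card T := Nat.card_pos
  calc Nat.card V ^ 2 ≤ (Nat.card T ^ Q.card) ^ 2 := Nat.pow_le_pow_left h1 2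
    _ = Nat.card T ^ (Q.card * 2) := by rw [pow_mul]
    _ ≤ Nat.card T ^ Fintype.card ι := Nat.pow_le_pow_right hTpos hcount

end concrete

end Cfsg.Agent.Lib.CompLen
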