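import Mathlib
import Cfsg.Agent.Lib.CompLen.Coord
import Cfsg.Agent.Lib.CompLen.Subdirect
import Cfsg.Agent.Lib.Cl.Pres4

/-!
Primitive groups whose minimal normal subgroup is nonabelian.
-/

set_option autoImplicit false

namespace Cfsg.Agent.Lib.CompLen

universe v

open MulAction ArithmeticFunction

open scoped commutatorElement

theorem Ch.one {G : Type v} [Group G] {A : Subgroup G} (h : A ≠ ⊥) : Ch A 1 :=
  Ch.step Ch.base (bot_lt_iff_ne_bot.mpr h) (by
    intro x hx b _
    rw [Subgroup.mem_bot] at hx ⊢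
    simp [hx])

theorem Ch.exists_any {G : Type v} [Group G] (A : Subgroup G) : ∃ u, Ch A u := by
  by_cases h : A = ⊥
  · exact ⟨0, h ▸ Ch.base⟩
  · exact ⟨1, Ch.one h⟩

section product

variable {G Ω : Type v} [Group G] [MulAction G Ω] {N : Subgroup G} {T : Type v} [Group T]
  {m : ℕ} (e : N ≃* (Fin m → T))

theorem all_fix (α : Ω) (h : ∀ j t, ll e j t • α = α) (x : G) (hx : x ∈ N) : x • α = α := by
  classical
  have key : ∀ (J : Finset (Fin m)) (f : Fin m → T), (∀ i, i ∉ J → f i = 1) →
      ((e.symm f : N) : G) • α = α := by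
    intro J
    induction J using Finset.induction_on with
    | empty =>
      intro f hf
      have h0 : f = 1 := by
        funext i
        exact hf i (by simp)
      rw [h0, map_one]
      simp
    | insert i J _ ih =>
      intro f hf
      have h1 : f = Function.update f i 1 * Pi.mulSingle i (f i) := by
        funext j
        by_cases hj : j = i
        · subst hj
          simp
        · simp [hj, Pi.mulSingle_eq_of_ne hj]
      rw [h1, map_mul]
      have h2 : ((e.symm (Pi.mulSingle i (f i)) : N) : G) = ll e i (f i) := rfl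
      rw [Subgroup.coe_mul, mul_smul, h2, h]
      apply ih
      intro j hj
      by_cases hji : j = i
      · subst hji
        simp
      · rw [Function.update_of_ne hji]
        exact hf j (by simp [hji, hj])
  have h1 := key Finset.univ (e ⟨x, hx⟩) (by simp)
  rwa [e.symm_apply_apply] at h1

end product

theorem nonabelian_case {n : ℕ} (IH : ∀ m < n, PP.{v} m) (G Ω : Type v) [Group G] [Finite G]
    [MulAction G Ω] [FaithfulSMul G Ω] [Finite Ω] [IsPreprimitive G Ω] (hn : Nat.card Ω = n)
    (h2 : 2 ≤ n) (N : Subgroup G) [hNn : N.Normal] (hN : N ≠ ⊥)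
    (hmin : ∀ M : Subgroup G, M.Normal → M ≤ N → M = ⊥ ∨ M = N)
    (hab : ¬ ∀ x ∈ N, ∀ y ∈ N, x * y = y * x) (l : ℕ) (hl : Ch (⊤ : Subgroup G) l) :
    3 * l + 4 ≤ 4 * n := by
  classical
  haveI hTr : IsPretransitive N Ω := pretrans_of_normal N hN
  obtain ⟨T₀, -, hsimple, m, hm, ⟨e⟩⟩ := Cfsg.Agent.Lib.Perm.MinNormal.exists_power hN hmin
  have hcomm : ¬ ∀ a b : T₀, a * b = b * a := by
    intro h1
    apply hab
    intro x hx y hy
    have h3 : e ⟨x, hx⟩ * e ⟨y, hy⟩ = e ⟨y, hy⟩ * e ⟨x, hx⟩ := by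
      funext i
      exact h1 _ _
    have h4 := e.injective (by rw [map_mul, map_mul, h3] : e (⟨x, hx⟩ * ⟨y, hy⟩) = e (⟨y, hy⟩ * ⟨x, hx⟩))
    exact congrArg Subtype.val h4
  have hZ : ∀ t : T₀, (∀ y, t * y = y * t) → t = 1 := by
    rcases (inferInstance : (Subgroup.center T₀).Normal).eq_bot_or_eq_top with h | h
    · intro t ht
      have h3 : t ∈ Subgroup.center T₀ := Subgroup.mem_center_iff.mpr (fun y => (ht y).symm)
      rw [h, Subgroup.mem_bot] at h3
      exact h3
    · exfalso
      apply hcomm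
      intro a b
      have h3 : a ∈ Subgroup.center T₀ := by
        rw [h]
        trivial
      exact (Subgroup.mem_center_iff.mp h3 b).symm
  have hperf : commutator T₀ = ⊤ := by
    rcases (inferInstance : (commutator T₀).Normal).eq_bot_or_eq_top with h | h
    · exfalso
      apply hcomm
      intro a b
      have h3 : ⁅a, b⁆ ∈ commutator T₀ :=
        Subgroup.commutator_mem_commutator (Subgroup.mem_top a) (Subgroup.mem_top b)
      rw [h, Subgroup.mem_bot] at h3
      exact commutatorElement_eq_one_iff_mul_comm.mp h3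
    · exact h
  have h60 : 60 ≤ Nat.card T₀ := by
    by_contra hlt
    have hsol := Cfsg.Agent.Lib.Cl.Pres.solvable_of_card_lt_60 _ (by omega) T₀ rfl
    have := Group.IsSolvable.commutator_lt_top_of_nontrivial (G := T₀)
    rw [hperf] at this
    exact lt_irrefl _ this
  obtain ⟨σ, hσ⟩ := exists_sigma e hZ
  obtain ⟨α⟩ : Nonempty Ω := by
    refine (Nat.card_pos_iff.mp ?_).1
    omega
  have hne' : Nonempty (SubMulAction.ofStabilizer G α) := by
    obtain ⟨ω, hω⟩ := exists_ne_point (Ω := Ω) (by omega) α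
    exact ⟨⟨ω, hω⟩⟩
  obtain ⟨l₁, l₂, hll, h₁, h₂⟩ := chain_lift N α hl
  have hl1 : l₁ ≤ m := Ch.pow_le m (Ch.top_equiv e h₁)
  by_cases hG : ∀ i, Gd e α i
  · -- the coordinate kernels are intransitive
    have hvals : 3 * l₂ + 4 * m ≤ 4 * (n - 1) := by
      obtain ⟨u, hu⟩ := Ch.exists_any (N.subgroupOf (stabilizer G α))
      have h3 := IH_stab IH hn (by omega) α (fun ω => (Sset e α (ω : Ω)).ncard) (by
        intro h ω
        exact Sset_ncard e hσ hZ h.2 (ω : Ω)) (u + l₂) (h₂ u hu)
      have h4 : m ≤ (Set.range fun ω : SubMulAction.ofStabilizer G α =>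
          (Sset e α (ω : Ω)).ncard).ncard := by
        have h5 : ((Finset.Icc 1 m : Finset ℕ) : Set ℕ) ⊆ Set.range fun ω : SubMulAction.ofStabilizer G α =>
            (Sset e α (ω : Ω)).ncard := by
          intro j hj
          have hj' := Finset.mem_Icc.mp (Finset.mem_coe.mp hj)
          obtain ⟨J, -, hJ⟩ := Finset.exists_subset_card_eq (s := (Finset.univ : Finset (Fin m)))
            (n := j) (by simpa using hj'.2)
          obtain ⟨ω, hω⟩ := exists_Sset e α hG J
          have hne : ω ≠ α := by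
            intro hωα
            rw [hωα] at hω
            obtain ⟨i, hi⟩ : J.Nonempty := Finset.card_pos.mp (by omega)
            have h6 : i ∈ Sset e α α := by
              rw [hω]
              exact hi
            exact notMem_Sset_self e α i h6
          refine ⟨⟨ω, hne⟩, ?_⟩
          simp only
          rw [hω, Set.ncard_coe_finset, hJ]
        have h6 := Set.ncard_le_ncard h5 (Set.toFinite _)
        rwa [Set.ncard_coe_finset, Nat.card_Icc, Nat.add_sub_cancel] at h6
      omega
    omega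
  -- the coordinate kernels are transitive
  push Not at hG
  obtain ⟨i₀, hi₀⟩ := hG
  have hall := notGd_all e hσ hZ hmin α hi₀
  have hall' : ∀ j, ∀ x ∈ N, ∃ c ∈ Cc e j, c • α = x • α := by
    intro j x hx
    by_contra hc
    push Not at hc
    exact hall j ⟨x, hx, hc⟩
  obtain ⟨t₀, ht₀⟩ := exists_ne (1 : T₀)
  have hU : ∃ u ∈ N, u ≠ 1 ∧ u • α = α := by
    by_contra hc
    push Not at hc
    let i : Fin m := ⟨0, hm⟩
    obtain ⟨c, hc1, hc2⟩ := hall' i _ (ll_mem e i t₀)
    have hcN := Cc_le e i hc1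
    have h3 : c⁻¹ * ll e i t₀ = 1 := by
      by_contra hne
      apply hc _ (N.mul_mem (N.inv_mem hcN) (ll_mem e i t₀)) hne
      rw [mul_smul, ← hc2, inv_smul_smul]
    have h4 : ll e i t₀ = c := (inv_mul_eq_one.mp h3).symm
    have h5 : ll e i t₀ ∈ Cc e i := by
      rw [h4]
      exact hc1
    have h6 := (mem_Cc_iff e i ⟨ll e i t₀, ll_mem e i t₀⟩).mp h5
    rw [e_ll, Pi.mulSingle_eq_same] at h6
    exact ht₀ h6
  by_cases hm2 : m ≤ 2
  · have hUb : N.subgroupOf (stabilizer G α) ≠ ⊥ := by
      intro h0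
      obtain ⟨u, huN, hu1, hua⟩ := hU
      have h3 : (⟨u, hua⟩ : stabilizer G α) ∈ N.subgroupOf (stabilizer G α) := huN
      rw [h0, Subgroup.mem_bot] at h3
      exact hu1 (congrArg Subtype.val h3)
    have h3 := h₂ 1 (Ch.one hUb)
    have h4 := IH_stab IH hn (by omega) α (fun _ => 0) (by simp) _ h3
    rw [Set.range_const, Set.ncard_singleton] at h4
    omega
  -- at least three factors
  have hm3 : 3 ≤ m := by omega
  have hcent : ∀ g : G, (∀ x ∈ N, g * x * g⁻¹ = x) → g = 1 := by
    have hZN : Subgroup.centralizer (N : Set G) = ⊥ := by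
      by_contra hne
      haveI := pretrans_of_normal (Ω := Ω) (Subgroup.centralizer (N : Set G)) hne
      obtain ⟨u, huN, hu1, hua⟩ := hU
      apply hu1
      apply eq_one_of_fix (Ω := Ω)
      intro ω
      obtain ⟨z, hz, rfl⟩ := exists_mem_smul (Ω := Ω) (Subgroup.centralizer (N : Set G)) α ω
      have h3 := (Subgroup.mem_centralizer_iff.mp hz) u huN
      rw [smul_smul, h3, mul_smul, hua]
    intro g hg
    have h3 : g ∈ Subgroup.centralizer (N : Set G) := by
      rw [Subgroup.mem_centralizer_iff]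
      intro x hx
      have h4 := hg x hx
      calc x * g = (g * x * g⁻¹) * g := by rw [h4]
        _ = g * x := by group
    rw [hZN, Subgroup.mem_bot] at h3
    exact h3
  let V : Subgroup (Fin m → T₀) := (stabilizer N α).map e.toMonoidHom
  have hVcard : Nat.card V = Nat.card (stabilizer N α) :=
    Nat.card_congr (Subgroup.equivMapOfInjective _ _ e.injective).symm.toEquiv
  have hsub : ∀ i t, ∃ v ∈ V, v i = t := by
    intro i t
    obtain ⟨c, hc, hce⟩ := hall' i _ (ll_mem e i t)
    have hcN := Cc_le e i hc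
    refine ⟨e ((⟨c, hcN⟩ : N)⁻¹ * ⟨ll e i t, ll_mem e i t⟩), ⟨_, ?_, rfl⟩, ?_⟩
    · change (c⁻¹ * ll e i t) • α = α
      rw [mul_smul, ← hce, inv_smul_smul]
    · rw [map_mul, map_inv, Pi.mul_apply, Pi.inv_apply, (mem_Cc_iff e i ⟨c, hcN⟩).mp hc, e_ll]
      simp
  have hno : ∀ i, ∃ t, Pi.mulSingle i t ∉ V := by
    intro i
    by_contra hc
    push Not at hc
    have h1 : ∀ t, ll e i t • α = α := by
      intro t
      obtain ⟨y, hy, hye⟩ := hc t
      have h3 : y = ⟨ll e i t, ll_mem e i t⟩ := by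
        apply e.injective
        rw [e_ll]
        exact hye
      rw [h3] at hy
      exact hy
    have h3 : ∀ j t, ll e j t • α = α := by
      intro j t
      obtain ⟨h, hh, rfl⟩ := sigma_trans e hσ hZ hmin α i j
      obtain ⟨s, hs⟩ := conj_inv_mem_Ll e hσ (g := h) (i := i) (y := ll e (σ h i) t) ⟨t, rfl⟩
      have h4 : (h⁻¹ * ll e (σ h i) t * h) • α = α := by
        rw [← hs]
        exact h1 s
      rw [mul_smul, mul_smul, hh, inv_smul_eq_iff, hh] at h4
      exact h4
    obtain ⟨ω, hω⟩ := exists_ne_point (Ω := Ω) (by omega) α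
    obtain ⟨x, hx, rfl⟩ := exists_mem_smul (Ω := Ω) N α ω
    exact hω (all_fix e α h3 x hx)
  have hs1 := subdirect_card hperf V hsub hno
  rw [hVcard, Fintype.card_fin] at hs1
  have hNT : Nat.card N = Nat.card T₀ ^ m := by
    rw [Nat.card_congr e.toEquiv, Nat.card_fun, Nat.card_fin]
  have hNcard : Nat.card N = n * Nat.card (stabilizer N α) := by
    have h1 := Subgroup.index_mul_card (stabilizer N α)
    rw [index_stabilizer_of_transitive, hn] at h1
    exact h1.symm
  have hcn : Nat.card N ≤ n ^ 2 := by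
    have hc0 : 0 < Nat.card N := Nat.card_pos
    rw [← hNT] at hs1
    have h3 : Nat.card N * Nat.card N ≤ n ^ 2 * Nat.card N := by
      calc Nat.card N * Nat.card N = n ^ 2 * Nat.card (stabilizer N α) ^ 2 := by
            conv_lhs => rw [hNcard]
            ring
        _ ≤ n ^ 2 * Nat.card N := Nat.mul_le_mul_left _ hs1
    exact Nat.le_of_mul_le_mul_right h3 hc0
  have hc16 : 2 ^ 16 ≤ Nat.card N := by
    rw [hNT]
    calc 2 ^ 16 ≤ 60 ^ 3 := by norm_num
      _ ≤ Nat.card T₀ ^ 3 := Nat.pow_le_pow_left h60 3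
      _ ≤ Nat.card T₀ ^ m := Nat.pow_le_pow_right (by omega) hm3
  obtain ⟨s, hs, hsc⟩ := exists_gens N
  have hd : 2 ^ s.card ≤ Nat.card N :=
    (Nat.pow_le_pow_right (by norm_num) hsc).trans (two_pow_om_le _ Nat.card_pos.ne')
  have hcardG : 2 ^ l ≤ Nat.card N ^ s.card := by
    refine hl.two_pow_le.trans ?_
    exact card_le_pow_of_gens s N ⊤ hs hNn (fun g _ hg => hcent g hg)
  exact numB hc16 hcn hd hcardG

end Cfsg.Agent.Lib.CompLen
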