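import Mathlib
import Cfsg.Agent.Lib.CompLen.NonAb

/-!
The composition length bound for finite permutation groups.
-/

set_option autoImplicit false

namespace Cfsg.Agent.Lib.CompLen

universe u v

open MulAction

theorem exists_min_normal (G : Type v) [Group G] [Finite G] [Nontrivial G] :
    ∃ N : Subgroup G, N.Normal ∧ N ≠ ⊥ ∧ ∀ M : Subgroup G, M.Normal → M ≤ N → M = ⊥ ∨ M = N := by
  have hne : {N : Subgroup G | N.Normal ∧ N ≠ ⊥}.Nonempty :=
    ⟨⊤, inferInstance, top_ne_bot⟩
  obtain ⟨N, ⟨h1, h2⟩, h3⟩ := (wellFounded_lt (α := Subgroup G)).has_min _ hne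
  refine ⟨N, h1, h2, ?_⟩
  intro M hM hle
  by_cases hb : M = ⊥
  · exact Or.inl hb
  right
  by_contra hne'
  exact h3 M ⟨hM, hb⟩ (lt_of_le_of_ne hle hne')

theorem pp_all (n : ℕ) : PP.{v} n := by
  induction n using Nat.strong_induction_on with
  | _ n IH =>
    apply step_of_prim IH
    intro G Ω _ _ _ _ _ _ hn h2 l hl
    haveI : Nontrivial Ω := (Finite.one_lt_card_iff_nontrivial).mp (by omega)
    haveI : Nontrivial G := by
      by_contra hc
      rw [not_nontrivial_iff_subsingleton] at hc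
      obtain ⟨a, b, hab⟩ := exists_pair_ne Ω
      obtain ⟨g, hg⟩ := MulAction.exists_smul_eq G a b
      apply hab
      rw [← hg, Subsingleton.elim g 1, one_smul]
    obtain ⟨N, hNn, hN, hmin⟩ := exists_min_normal G
    by_cases hab : ∀ x ∈ N, ∀ y ∈ N, x * y = y * x
    · exact abelian_case IH G Ω hn h2 N hN hmin hab l hl
    · exact nonabelian_case IH G Ω hn h2 N hN hmin hab l hl

/-- Faithful actions: the final form. -/
theorem main {G : Type u} {Ω : Type v} [Group G] [Finite G] [MulAction G Ω] [FaithfulSMul G Ω]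
    [Finite Ω] {l : ℕ} (hl : Ch (⊤ : Subgroup G) l) :
    3 * l + 4 * Nat.card (Quotient (orbitRel G Ω)) ≤ 4 * Nat.card Ω := by
  classical
  let f : G →* Equiv.Perm Ω := MulAction.toPermHom G Ω
  have hf : Function.Injective f := MulAction.toPerm_injective
  let E : G ≃* f.range := MonoidHom.ofInjective hf
  have hl' := Ch.top_equiv E hl
  haveI : FaithfulSMul f.range Ω := ⟨fun h => Subtype.ext (Equiv.ext h)⟩
  let Q := Quotient (orbitRel G Ω)
  let c : Q ≃ Fin (Nat.card Q) := Finite.equivFin Q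
  let φ : Ω → ℕ := fun ω => (c (Quotient.mk _ ω)).val
  have hφ : ∀ (g : f.range) (ω : Ω), φ (g • ω) = φ ω := by
    rintro ⟨_, ⟨g, rfl⟩⟩ ω
    have h1 : (Quotient.mk _ (g • ω) : Q) = Quotient.mk _ ω := by
      apply Quotient.sound
      exact ⟨g, rfl⟩
    change (c (Quotient.mk _ (g • ω))).val = (c (Quotient.mk _ ω)).val
    rw [h1]
  have hr : (Set.range φ).ncard = Nat.card Q := by
    have h3 : Set.range φ = (fun i : Q => (c i).val) '' Set.univ := by
      ext j
      constructor
      · rintro ⟨ω, rfl⟩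
        exact ⟨Quotient.mk _ ω, trivial, rfl⟩
      · rintro ⟨q, -, rfl⟩
        obtain ⟨ω, rfl⟩ := Quotient.exists_rep q
        exact ⟨ω, rfl⟩
    rw [h3, Set.ncard_image_of_injective _ (fun a b hab => c.injective (Fin.ext hab)), Set.ncard_univ]
  have := pp_all (Nat.card Ω) f.range Ω φ hφ rfl l hl'
  rwa [hr] at this

end Cfsg.Agent.Lib.CompLen
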